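import Mathlib

set_option autoImplicit false

namespace Cfsg.Agent.Lib.Helper26

open Subgroup

theorem pow_conj_formula {B : Type*} [Group B] {u b w : B} (hbu : b * u = w * u * b)
    (hwu : w * u = u * w) (hwb : w * b = b * w) (n : ℕ) :
    (u * b) ^ n = w ^ (∑ i ∈ Finset.range n, i) * u ^ n * b ^ n := by
  have hb : ∀ j : ℕ, b ^ j * u = w ^ j * u * b ^ j := by
    intro j
    induction j with
    | zero => simp
    | succ j ih =>
      have hc : b * w ^ j = w ^ j * b := ((Commute.pow_left (show Commute w b from hwb) j).eq).symm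
      calc b ^ (j + 1) * u = b * (b ^ j * u) := by rw [pow_succ', mul_assoc]
        _ = b * (w ^ j * u * b ^ j) := by rw [ih]
        _ = (b * w ^ j) * u * b ^ j := by simp only [mul_assoc]
        _ = (w ^ j * b) * u * b ^ j := by rw [hc]
        _ = w ^ j * (b * u) * b ^ j := by simp only [mul_assoc]
        _ = w ^ j * (w * u * b) * b ^ j := by rw [hbu]
        _ = w ^ (j + 1) * u * b ^ (j + 1) := by rw [pow_succ, pow_succ']; simp only [mul_assoc]
  induction n with
  | zero => simp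
  | succ n ih =>
    have hc : u ^ n * w ^ n = w ^ n * u ^ n :=
      ((Commute.pow_pow (show Commute w u from hwu) n n).eq).symm
    rw [pow_succ, ih, Finset.sum_range_succ, pow_add]
    calc w ^ (∑ i ∈ Finset.range n, i) * u ^ n * b ^ n * (u * b)
        = w ^ (∑ i ∈ Finset.range n, i) * u ^ n * (b ^ n * u) * b := by simp only [mul_assoc]
      _ = w ^ (∑ i ∈ Finset.range n, i) * u ^ n * (w ^ n * u * b ^ n) * b := by rw [hb n]
      _ = w ^ (∑ i ∈ Finset.range n, i) * (u ^ n * w ^ n) * u * b ^ n * b := by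
          simp only [mul_assoc]
      _ = w ^ (∑ i ∈ Finset.range n, i) * (w ^ n * u ^ n) * u * b ^ n * b := by rw [hc]
      _ = w ^ (∑ i ∈ Finset.range n, i) * w ^ n * u ^ (n + 1) * b ^ (n + 1) := by
          rw [pow_succ, pow_succ]; simp only [mul_assoc]

/-- `p` odd: a non-cyclic `p`-group with a cyclic subgroup `A` of index `p` has an element of
order dividing `p` outside `A`. -/
theorem exists_prime_order_not_mem {B : Type*} [Group B] [Finite B] {p : ℕ} [hpf : Fact p.Prime]
    (hp : Odd p) (hB : IsPGroup p B) (A : Subgroup B) (hA : IsCyclic A) (hidx : A.index = p)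
    (hnc : ¬ IsCyclic B) : ∃ c : B, c ∉ A ∧ c ^ p = 1 := by
  classical
  have hpp := hpf.out
  obtain ⟨nB, hnB⟩ := IsPGroup.iff_card.mp hB
  have hcardAB : Nat.card A * p = Nat.card B := by rw [← hidx]; exact A.card_mul_index
  have hnB0 : nB ≠ 0 := by
    rintro rfl
    rw [pow_zero] at hnB
    rw [hnB] at hcardAB
    have := Nat.eq_one_of_mul_eq_one_left hcardAB
    exact hpp.one_lt.ne' this
  have hAn : A.Normal := by
    apply Subgroup.normal_of_index_eq_minFac_card
    rw [hidx, hnB, Nat.pow_minFac hnB0, Nat.Prime.minFac_eq hpp]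
  obtain ⟨⟨a, haA⟩, hgen0⟩ := hA.exists_generator
  have hgen : ∀ x ∈ A, ∃ k : ℕ, a ^ k = x := by
    intro x hx
    have h1 := hgen0 ⟨x, hx⟩
    rw [← mem_powers_iff_mem_zpowers] at h1
    obtain ⟨k, hk⟩ := h1
    exact ⟨k, by simpa using congrArg Subtype.val hk⟩
  obtain ⟨b, hbA⟩ : ∃ b : B, b ∉ A := by
    by_contra h
    have h' : ∀ b : B, b ∈ A := fun b => by
      by_contra hb; exact h ⟨b, hb⟩
    have : A = ⊤ := (Subgroup.eq_top_iff' A).mpr h'
    rw [this, Subgroup.index_top] at hidx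
    exact hpp.one_lt.ne hidx
  have hbp : b ^ p ∈ A := by rw [← hidx]; exact A.pow_index_mem b
  obtain ⟨s, hs⟩ := hgen _ hbp
  have hconj : b * a * b⁻¹ ∈ A := hAn.conj_mem a haA b
  obtain ⟨k, hk⟩ := hgen _ hconj
  by_cases ha1 : a = 1
  · refine ⟨b, hbA, ?_⟩
    rw [← hs, ha1, one_pow]
  have hk0 : k ≠ 0 := by
    rintro rfl
    rw [pow_zero] at hk
    apply ha1
    have : a = b⁻¹ * (b * a * b⁻¹) * b := by group
    rw [this, ← hk]; group
  obtain ⟨d, rfl⟩ : ∃ d, k = d + 1 := ⟨k - 1, by omega⟩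
  obtain ⟨m, hm⟩ := (IsPGroup.iff_orderOf.mp hB) a
  have hm0 : m ≠ 0 := by
    rintro rfl
    rw [pow_zero, orderOf_eq_one_iff] at hm
    exact ha1 hm
  have hconjpow : ∀ j : ℕ, b ^ j * a * (b ^ j)⁻¹ = a ^ ((d + 1) ^ j) := by
    intro j
    induction j with
    | zero => simp
    | succ j ih =>
      calc b ^ (j + 1) * a * (b ^ (j + 1))⁻¹ = b * (b ^ j * a * (b ^ j)⁻¹) * b⁻¹ := by
            rw [pow_succ']; group
        _ = b * a ^ ((d + 1) ^ j) * b⁻¹ := by rw [ih]
        _ = (b * a * b⁻¹) ^ ((d + 1) ^ j) := by rw [conj_pow]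
        _ = a ^ ((d + 1) ^ (j + 1)) := by rw [← hk, ← pow_mul, pow_succ']
  have h1 : a ^ ((d + 1) ^ p) = a ^ 1 := by
    rw [← hconjpow p, ← hs, pow_one]
    group
  rw [pow_eq_pow_iff_modEq, hm] at h1
  have hN1 : p ∣ d := by
    have h2 : (d + 1) ^ p ≡ 1 [MOD p] := h1.of_dvd (dvd_pow_self p hm0)
    have h3 : ((d + 1 : ℕ) : ZMod p) ^ p = ((d + 1 : ℕ) : ZMod p) := ZMod.pow_card _
    have h4 : (((d + 1) ^ p : ℕ) : ZMod p) = ((1 : ℕ) : ZMod p) :=
      (ZMod.natCast_eq_natCast_iff _ _ _).mpr h2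
    have h5 : ((d + 1 : ℕ) : ZMod p) = 1 := by
      rw [← h3, ← Nat.cast_pow, h4, Nat.cast_one]
    have h6 : ((d : ℕ) : ZMod p) = 0 := by
      have : ((d + 1 : ℕ) : ZMod p) = (d : ZMod p) + 1 := by push_cast; rfl
      rw [this] at h5
      simpa using h5
    exact (ZMod.natCast_eq_zero_iff _ _).mp h6
  have hN2 : p ^ m ∣ p * d := by
    by_cases hd0 : d = 0
    · subst hd0; simp
    have hlt : 1 < d + 1 := by omega
    have hsub : p ∣ (d + 1) - 1 := by simpa using hN1
    have hnd : ¬ p ∣ d + 1 := by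
      intro h
      have := (Nat.dvd_add_right hN1).mp h
      exact hpp.one_lt.ne' (Nat.dvd_one.mp this)
    have hLTE := padicValNat.pow_sub_pow hp hlt hsub hnd (n := p) hpp.ne_zero
    rw [one_pow, padicValNat_self, Nat.add_sub_cancel] at hLTE
    have hdvd : p ^ m ∣ (d + 1) ^ p - 1 :=
      (Nat.modEq_iff_dvd' (Nat.one_le_pow _ _ (by omega))).mp h1.symm
    have hne : (d + 1) ^ p - 1 ≠ 0 := by
      have : 1 < (d + 1) ^ p := Nat.one_lt_pow hpp.ne_zero hlt
      omega
    have hle : m ≤ padicValNat p ((d + 1) ^ p - 1) := (padicValNat_dvd_iff_le hne).mp hdvd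
    rw [hLTE] at hle
    have hd' : p ^ (m - 1) ∣ d := (padicValNat_dvd_iff_le hd0).mpr (by omega)
    have : p ^ m = p * p ^ (m - 1) := by rw [← pow_succ']; congr 1; omega
    rw [this]; exact Nat.mul_dvd_mul_left p hd'
  have hN3 : p ^ m ∣ d * d := by
    obtain ⟨d', rfl⟩ := hN1
    have h7 : p ^ m ∣ p * (p * d') := hN2
    have : p * d' * (p * d') = p * (p * d') * d' := by ring
    rw [this]; exact Dvd.dvd.mul_right h7 d'
  have hadp : a ^ (d * p) = 1 := by
    rw [← orderOf_dvd_iff_pow_eq_one, hm, mul_comm]; exact hN2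
  have hadd : a ^ (d * d) = 1 := by
    rw [← orderOf_dvd_iff_pow_eq_one, hm]; exact hN3
  by_cases hps : p ∣ s
  · obtain ⟨s', rfl⟩ := hps
    have hbu : b * a ^ (s' * (p ^ m - 1)) =
        a ^ (d * (s' * (p ^ m - 1))) * a ^ (s' * (p ^ m - 1)) * b := by
      have : b * a ^ (s' * (p ^ m - 1)) * b⁻¹ =
          a ^ (d * (s' * (p ^ m - 1))) * a ^ (s' * (p ^ m - 1)) := by
        rw [← conj_pow, ← hk, ← pow_mul, ← pow_add]; congr 1; ring
      calc b * a ^ (s' * (p ^ m - 1)) = (b * a ^ (s' * (p ^ m - 1)) * b⁻¹) * b := by group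
        _ = _ := by rw [this]
    have hwu : a ^ (d * (s' * (p ^ m - 1))) * a ^ (s' * (p ^ m - 1)) =
        a ^ (s' * (p ^ m - 1)) * a ^ (d * (s' * (p ^ m - 1))) := by
      rw [← pow_add, ← pow_add, add_comm]
    have hwb : a ^ (d * (s' * (p ^ m - 1))) * b = b * a ^ (d * (s' * (p ^ m - 1))) := by
      have : b * a ^ (d * (s' * (p ^ m - 1))) * b⁻¹ = a ^ (d * (s' * (p ^ m - 1))) := by
        rw [← conj_pow, ← hk, ← pow_mul]
        have : (d + 1) * (d * (s' * (p ^ m - 1))) =
            d * d * (s' * (p ^ m - 1)) + d * (s' * (p ^ m - 1)) := by ring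
        rw [this, pow_add, pow_mul, hadd, one_pow, one_mul]
      calc a ^ (d * (s' * (p ^ m - 1))) * b
          = (b * a ^ (d * (s' * (p ^ m - 1))) * b⁻¹) * b := by rw [this]
        _ = b * a ^ (d * (s' * (p ^ m - 1))) := by group
    have hwp : (a ^ (d * (s' * (p ^ m - 1)))) ^ p = 1 := by
      rw [← pow_mul, mul_right_comm, pow_mul, hadp, one_pow]
    refine ⟨a ^ (s' * (p ^ m - 1)) * b, ?_, ?_⟩
    · intro h
      apply hbA
      have hu : a ^ (s' * (p ^ m - 1)) ∈ A := pow_mem haA _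
      have : b = (a ^ (s' * (p ^ m - 1)))⁻¹ * (a ^ (s' * (p ^ m - 1)) * b) := by group
      rw [this]; exact mul_mem (inv_mem hu) h
    · rw [pow_conj_formula hbu hwu hwb p]
      have hT : p ∣ ∑ j ∈ Finset.range p, j := by
        have h2 := Finset.sum_range_id_mul_two p
        have h3 : p ∣ (∑ j ∈ Finset.range p, j) * 2 := by rw [h2]; exact dvd_mul_right p _
        have hcop : Nat.Coprime p 2 := by
          rw [Nat.coprime_comm, Nat.coprime_two_left]; exact hp
        exact hcop.dvd_of_dvd_mul_right h3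
      obtain ⟨e, he⟩ := hT
      rw [he, pow_mul, hwp, one_pow, one_mul, ← hs, ← pow_mul, ← pow_add]
      have h1le : 1 ≤ p ^ m := Nat.one_le_pow _ _ hpp.pos
      have : s' * (p ^ m - 1) * p + p * s' = p ^ m * (s' * p) := by
        zify [h1le]; ring
      rw [this, pow_mul, ← hm, pow_orderOf_eq_one, one_pow]
  · exfalso
    apply hnc
    have ho1 : orderOf (b ^ p) = p ^ m := by
      rw [← hs, orderOf_pow, hm]
      have : Nat.gcd (p ^ m) s = 1 :=
        Nat.Coprime.pow_left m ((Nat.Prime.coprime_iff_not_dvd hpp).mpr hps)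
      rw [this, Nat.div_one]
    obtain ⟨j, hj⟩ := (IsPGroup.iff_orderOf.mp hB) b
    have hj0 : j ≠ 0 := by
      rintro rfl
      rw [pow_zero, orderOf_eq_one_iff] at hj
      exact hbA (hj ▸ one_mem A)
    have ho2 : orderOf (b ^ p) = p ^ (j - 1) := by
      rw [orderOf_pow, hj]
      have : Nat.gcd (p ^ j) p = p := Nat.gcd_eq_right (dvd_pow_self p hj0)
      rw [this]
      exact Nat.div_eq_of_eq_mul_left hpp.pos (by rw [← pow_succ]; congr 1; omega)
    have hjm : j - 1 = m := Nat.pow_right_injective hpp.two_le (ho2.symm.trans ho1)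
    have hcardA : Nat.card A = p ^ m := by
      have hAz : A = Subgroup.zpowers a := by
        apply le_antisymm
        · intro x hx
          obtain ⟨k', hk'⟩ := hgen x hx
          exact hk' ▸ Subgroup.npow_mem_zpowers a k'
        · rw [Subgroup.zpowers_le]; exact haA
      rw [hAz, Nat.card_zpowers, hm]
    apply isCyclic_of_orderOf_eq_card b
    rw [hj, ← hcardAB, hcardA, ← pow_succ]; congr 1; omega

theorem exists_pow_orderOf_eq_prime {P : Type*} [Group P] {p : ℕ} [hpf : Fact p.Prime]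
    (hP : IsPGroup p P) {x : P} (hx : x ≠ 1) : ∃ i : ℕ, orderOf (x ^ i) = p := by
  obtain ⟨j, hj⟩ := (IsPGroup.iff_orderOf.mp hP) x
  have hj0 : j ≠ 0 := by
    rintro rfl
    rw [pow_zero, orderOf_eq_one_iff] at hj
    exact hx hj
  refine ⟨p ^ (j - 1), ?_⟩
  rw [orderOf_pow_of_dvd (pow_ne_zero _ hpf.out.ne_zero) (by rw [hj]; exact pow_dvd_pow p (by omega)), hj]
  exact Nat.div_eq_of_eq_mul_left (pow_pos hpf.out.pos _) (by rw [← pow_succ']; congr 1; omega)

universe u

/-- `p` odd: a finite `p`-group all of whose commutative subgroups are cyclic is cyclic. -/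
theorem isCyclic_of_odd_aux {p : ℕ} [hpf : Fact p.Prime] (hp : Odd p) :
    ∀ (n : ℕ) (P : Type u) [Group P] [Finite P], Nat.card P = n → IsPGroup p P →
      (∀ A : Subgroup P, IsMulCommutative A → IsCyclic A) → IsCyclic P := by
  intro n
  induction n using Nat.strong_induction_on with
  | _ n ih =>
  intro P _ _ hn hP hab
  by_contra hnc
  have hpp := hpf.out
  obtain ⟨k, hk⟩ := IsPGroup.iff_card.mp hP
  have hk2 : 2 ≤ k := by
    by_contra hlt
    have : k = 0 ∨ k = 1 := by omega
    rcases this with rfl | rfl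
    · rw [pow_zero] at hk
      have : Subsingleton P := (Nat.card_eq_one_iff_unique.mp hk).1
      exact hnc inferInstance
    · rw [pow_one] at hk
      exact hnc (isCyclic_of_prime_card hk)
  have hnt : Nontrivial P := by
    rw [← Finite.one_lt_card_iff_nontrivial, hk]
    exact Nat.one_lt_pow (by omega) hpp.one_lt
  have := hP.center_nontrivial
  obtain ⟨⟨z0, hz0⟩, hz01⟩ := exists_ne (1 : center P)
  have hz01' : z0 ≠ 1 := fun h => hz01 (Subtype.ext h)
  obtain ⟨i, hzo⟩ := exists_pow_orderOf_eq_prime hP hz01'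
  have hz : z0 ^ i ∈ center P := pow_mem hz0 i
  generalize z0 ^ i = z at hzo hz
  have hzp : z ^ p = 1 := by rw [← hzo]; exact pow_orderOf_eq_one z
  obtain ⟨M, hMcard, hzM⟩ := Sylow.exists_subgroup_card_pow_prime_le p (n := 1) (m := k - 1)
    (by rw [hk]; exact pow_dvd_pow p (by omega)) (Subgroup.zpowers z)
    (by rw [Nat.card_zpowers, hzo, pow_one]) (by omega)
  have hMcyc : IsCyclic M := by
    apply ih (p ^ (k - 1)) (by rw [← hn, hk]; exact Nat.pow_lt_pow_right hpp.one_lt (by omega))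
      M hMcard (hP.to_subgroup M)
    intro A' hA'
    have hc : IsMulCommutative (A'.map M.subtype) := ⟨⟨fun x y => by
      obtain ⟨x, hx⟩ := x; obtain ⟨y, hy⟩ := y
      obtain ⟨x', hx', rfl⟩ := hx; obtain ⟨y', hy', rfl⟩ := hy
      have h := mul_comm' (⟨x', hx'⟩ : A') ⟨y', hy'⟩
      have h' : x' * y' = y' * x' := congrArg Subtype.val h
      exact Subtype.ext (congrArg (fun t : M => (t : P)) h')⟩⟩
    have := hab _ hc
    exact (A'.equivMapOfInjective M.subtype M.subtype_injective).isCyclic.mpr this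
  have hMidx : M.index = p := by
    have h1 := M.card_mul_index
    rw [hMcard, hk] at h1
    have h2 : p ^ k = p ^ (k - 1) * p := by rw [← pow_succ]; congr 1; omega
    rw [h2] at h1
    exact Nat.eq_of_mul_eq_mul_left (pow_pos hpp.pos _) h1
  obtain ⟨c, hcM, hcp⟩ := exists_prime_order_not_mem hp hP M hMcyc hMidx hnc
  have hzc : z * c = c * z := (Subgroup.mem_center_iff.mp hz c).symm
  have hcomm : ∀ x ∈ ({z, c} : Set P), ∀ y ∈ ({z, c} : Set P), x * y = y * x := by
    intro x hx y hy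
    rcases hx with rfl | rfl <;> rcases hy with rfl | rfl
    · rfl
    · exact hzc
    · exact hzc.symm
    · rfl
  have hEc : IsMulCommutative (Subgroup.closure ({z, c} : Set P)) :=
    Subgroup.isMulCommutative_closure hcomm
  have hEcyc := hab _ hEc
  have hEp : ∀ e ∈ Subgroup.closure ({z, c} : Set P), e ^ p = 1 := by
    intro e he
    induction he using Subgroup.closure_induction with
    | mem x hx =>
      rcases hx with rfl | rfl
      · exact hzp
      · exact hcp
    | one => simp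
    | mul x y hx hy hxp hyp =>
      have h := mul_comm' (⟨x, hx⟩ : Subgroup.closure ({z, c} : Set P)) ⟨y, hy⟩
      have h' : Commute x y := congrArg Subtype.val h
      rw [h'.mul_pow, hxp, hyp, one_mul]
    | inv x hx hxp => rw [inv_pow, hxp, inv_one]
  obtain ⟨g, hg⟩ := hEcyc.exists_generator
  have hgp : g ^ p = 1 := Subtype.ext (by simpa using hEp g g.2)
  have hcardE : Nat.card (Subgroup.closure ({z, c} : Set P)) ≤ p := by
    rw [← orderOf_eq_card_of_forall_mem_zpowers hg]
    exact Nat.le_of_dvd hpp.pos (orderOf_dvd_of_pow_eq_one hgp)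
  have hzE : Subgroup.zpowers z ≤ Subgroup.closure ({z, c} : Set P) := by
    rw [Subgroup.zpowers_le]; exact Subgroup.subset_closure (by simp)
  have heq : Subgroup.zpowers z = Subgroup.closure ({z, c} : Set P) :=
    Subgroup.eq_of_le_of_card_ge hzE (by rw [Nat.card_zpowers, hzo]; exact hcardE)
  have : c ∈ Subgroup.zpowers z := by rw [heq]; exact Subgroup.subset_closure (by simp)
  exact hcM (hzM this)

theorem isCyclic_of_odd {p : ℕ} [Fact p.Prime] (hp : Odd p) {P : Type*} [Group P] [Finite P]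
    (hP : IsPGroup p P) (hab : ∀ A : Subgroup P, IsMulCommutative A → IsCyclic A) :
    IsCyclic P :=
  isCyclic_of_odd_aux hp _ P rfl hP hab

end Cfsg.Agent.Lib.Helper26
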