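import Mathlib
import Cfsg.Agent.Lib.Helper4.FCDefs
import Cfsg.Agent.S0055

/-! Project FC (S4146, architect helper4): piece `V1B3` (helper26). -/

set_option autoImplicit false

namespace Cfsg.Agent.Lib.Helper4.FC

universe u

open scoped commutatorElement

/-- the elements whose conjugation action on `V1` is not changed by conjugating them with `y` -/
def v1b3_helper26_T {G : Type u} [Group G] (V1 : Subgroup G) (hV : V1.Normal) (y : G) :
    Subgroup G where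
  carrier := {h | ∀ x ∈ V1, (y * h * y⁻¹) * x * (y * h * y⁻¹)⁻¹ = h * x * h⁻¹}
  one_mem' := by
    intro x _
    simp
  mul_mem' := by
    intro h k hh hk x hx
    have h1 := hk x hx
    have h2 := hh (k * x * k⁻¹) (hV.conj_mem x hx k)
    calc y * (h * k) * y⁻¹ * x * (y * (h * k) * y⁻¹)⁻¹
        = (y * h * y⁻¹) * ((y * k * y⁻¹) * x * (y * k * y⁻¹)⁻¹) * (y * h * y⁻¹)⁻¹ := by group
      _ = (y * h * y⁻¹) * (k * x * k⁻¹) * (y * h * y⁻¹)⁻¹ := by rw [h1]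
      _ = h * (k * x * k⁻¹) * h⁻¹ := h2
      _ = h * k * x * (h * k)⁻¹ := by group
  inv_mem' := by
    intro h hh x hx
    have hx' : h⁻¹ * x * h ∈ V1 := by
      have := hV.conj_mem x hx h⁻¹
      rwa [inv_inv] at this
    have h2 := hh (h⁻¹ * x * h) hx'
    have h3 : (y * h * y⁻¹) * (h⁻¹ * x * h) * (y * h * y⁻¹)⁻¹ = x := by
      rw [h2]
      group
    calc y * h⁻¹ * y⁻¹ * x * (y * h⁻¹ * y⁻¹)⁻¹
        = (y * h * y⁻¹)⁻¹ * x * (y * h * y⁻¹) := by group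
      _ = (y * h * y⁻¹)⁻¹ * ((y * h * y⁻¹) * (h⁻¹ * x * h) * (y * h * y⁻¹)⁻¹) *
          (y * h * y⁻¹) := by rw [h3]
      _ = h⁻¹ * x * h⁻¹⁻¹ := by group

theorem fc_v1b3 : V1b3Stmt.{u} := by
  intro G _ _ t s d S V1 z ht hs hst hV1n hV1p hab hidx hzS hzC hzc v hv hzv
  by_contra hv1
  have : Fact t.Prime := ⟨ht⟩
  have : Fact s.Prime := ⟨hs⟩
  have : IsMulCommutative ↥V1 := ⟨⟨fun a b => Subtype.ext (hab a a.2 b b.2)⟩⟩
  -- coprimality
  have hcop : (Nat.card (Subgroup.zpowers z)).Coprime (Nat.card V1) := by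
    obtain ⟨k, hk⟩ := (IsPGroup.iff_card).1 hV1p
    rw [hk, Nat.card_zpowers]
    obtain ⟨j, hj⟩ := S.isPGroup' ⟨z, hzS⟩
    have hj' : z ^ s ^ j = 1 := by simpa using congrArg Subtype.val hj
    obtain ⟨i, -, hi⟩ := (Nat.dvd_prime_pow hs).1 (orderOf_dvd_of_pow_eq_one hj')
    rw [hi]
    exact Nat.Coprime.pow _ _ ((Nat.coprime_primes hs ht).2 hst)
  have hAV : Subgroup.zpowers z ≤ Subgroup.normalizer (V1 : Set G) := by
    intro h _
    refine Subgroup.mem_normalizer_iff.2 (fun x => ⟨fun hx => hV1n.conj_mem x hx h, fun hx => ?_⟩)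
    have := hV1n.conj_mem _ hx h⁻¹
    simpa [mul_assoc] using this
  obtain ⟨hbot, hsup⟩ := Cfsg.Agent.S0055.result (Subgroup.zpowers z) V1 hAV hcop
  have hWV : ⁅V1, Subgroup.zpowers z⁆ ≤ V1 := by
    calc ⁅V1, Subgroup.zpowers z⁆
        ≤ (V1 ⊓ Subgroup.centralizer (Subgroup.zpowers z : Set G)) ⊔ ⁅V1, Subgroup.zpowers z⁆ :=
          le_sup_right
      _ = V1 := hsup
  -- commuting with `z` puts an element of `V1` into the centralizer part
  have hC : ∀ x ∈ V1, z * x = x * z →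
      x ∈ V1 ⊓ Subgroup.centralizer (Subgroup.zpowers z : Set G) := by
    intro x hx hzx
    refine ⟨hx, ?_⟩
    have h1 : Subgroup.zpowers z ≤ Cen x := by
      rw [Subgroup.zpowers_le]
      exact Subgroup.mem_centralizer_iff.2
        (fun h hh => by rw [Set.mem_singleton_iff.1 hh]; exact hzx.symm)
    exact Subgroup.mem_centralizer_iff.2
      (fun h hh => (Subgroup.mem_centralizer_iff.1 (h1 hh) x rfl).symm)
  -- the commutator part is not trivial
  have hW : ⁅V1, Subgroup.zpowers z⁆ ≠ ⊥ := by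
    intro h0
    rw [h0, sup_bot_eq] at hsup
    apply hzC
    refine Subgroup.mem_centralizer_iff.2 (fun x hx => ?_)
    have hx' : x ∈ V1 ⊓ Subgroup.centralizer (Subgroup.zpowers z : Set G) := by
      rw [hsup]
      exact hx
    exact (Subgroup.mem_centralizer_iff.1 hx'.2 z (Subgroup.mem_zpowers z)).symm
  obtain ⟨⟨w', hw'W⟩, hw'0⟩ := (Subgroup.ne_bot_iff_exists_ne_one).1 hW
  have hw'1 : w' ≠ 1 := fun h => hw'0 (Subtype.ext h)
  -- conjugating by `y ∈ S` does not change the action of `zpowers z` on `V1`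
  have hT : ∀ y ∈ S, Subgroup.zpowers z ≤ v1b3_helper26_T V1 hV1n y := by
    intro y hy
    rw [Subgroup.zpowers_le]
    intro x hx
    have hc := hzc y⁻¹ (inv_mem hy)
    rw [inv_inv] at hc
    have hcx := Subgroup.mem_centralizer_iff.1 hc x hx
    calc y * z * y⁻¹ * x * (y * z * y⁻¹)⁻¹
        = z * ((z⁻¹ * y * z * y⁻¹) * x) * (z⁻¹ * y * z * y⁻¹)⁻¹ * z⁻¹ := by group
      _ = z * (x * (z⁻¹ * y * z * y⁻¹)) * (z⁻¹ * y * z * y⁻¹)⁻¹ * z⁻¹ := by rw [hcx]
      _ = z * x * z⁻¹ := by group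
  have hCinv : ∀ y ∈ S, ∀ x ∈ V1 ⊓ Subgroup.centralizer (Subgroup.zpowers z : Set G),
      y * x * y⁻¹ ∈ V1 ⊓ Subgroup.centralizer (Subgroup.zpowers z : Set G) := by
    intro y hy x hx
    refine ⟨hV1n.conj_mem x hx.1 y, Subgroup.mem_centralizer_iff.2 (fun h hh => ?_)⟩
    have h1 := hT y⁻¹ (inv_mem hy) hh x hx.1
    have h2 : h * x * h⁻¹ = x := by
      have := Subgroup.mem_centralizer_iff.1 hx.2 h hh
      rw [this]
      group
    rw [h2, inv_inv] at h1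
    calc h * (y * x * y⁻¹) = y * (y⁻¹ * h * y * x * (y⁻¹ * h * y)⁻¹) * y⁻¹ * h := by group
      _ = y * x * y⁻¹ * h := by rw [h1]
  have hWinv : ∀ y ∈ S, ∀ x ∈ ⁅V1, Subgroup.zpowers z⁆,
      y * x * y⁻¹ ∈ ⁅V1, Subgroup.zpowers z⁆ := by
    intro y hy x hx
    have h1 : (⁅V1, Subgroup.zpowers z⁆).map (MulAut.conj y).toMonoidHom ≤
        ⁅V1, Subgroup.zpowers z⁆ := by
      rw [Subgroup.map_commutator, Subgroup.commutator_le]
      rintro _ ⟨a, ha, rfl⟩ _ ⟨h, hh, rfl⟩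
      have ha' : y * a * y⁻¹ ∈ V1 := hV1n.conj_mem a ha y
      have h2 := hT y hy hh (y * a * y⁻¹)⁻¹ (inv_mem ha')
      have h3 : ⁅(MulAut.conj y).toMonoidHom a, (MulAut.conj y).toMonoidHom h⁆ =
          ⁅y * a * y⁻¹, h⁆ := by
        show ⁅y * a * y⁻¹, y * h * y⁻¹⁆ = ⁅y * a * y⁻¹, h⁆
        rw [commutatorElement_def, commutatorElement_def]
        calc y * a * y⁻¹ * (y * h * y⁻¹) * (y * a * y⁻¹)⁻¹ * (y * h * y⁻¹)⁻¹
            = y * a * y⁻¹ * ((y * h * y⁻¹) * (y * a * y⁻¹)⁻¹ * (y * h * y⁻¹)⁻¹) := by group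
          _ = y * a * y⁻¹ * (h * (y * a * y⁻¹)⁻¹ * h⁻¹) := by rw [h2]
          _ = y * a * y⁻¹ * h * (y * a * y⁻¹)⁻¹ * h⁻¹ := by group
      rw [h3]
      exact Subgroup.commutator_mem_commutator ha' hh
    exact h1 (Subgroup.mem_map_of_mem _ hx)
  -- the main argument
  have hvC := hC v hv hzv
  have hw'V : w' ∈ V1 := hWV hw'W
  have hvw' : v * w' ∈ V1 := mul_mem hv hw'V
  have hvw'1 : v * w' ≠ 1 := by
    intro h
    have h1 : v = w'⁻¹ := eq_inv_of_mul_eq_one_left h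
    have h2 : v ∈ (V1 ⊓ Subgroup.centralizer (Subgroup.zpowers z : Set G)) ⊓
        ⁅V1, Subgroup.zpowers z⁆ :=
      Subgroup.mem_inf.2 ⟨hvC, by rw [h1]; exact Subgroup.inv_mem _ hw'W⟩
    rw [hbot, Subgroup.mem_bot] at h2
    exact hv1 h2
  have d1 := hidx v hv hv1
  have d3 := hidx (v * w') hvw' hvw'1
  have hsplit : ∀ y ∈ S, y ∈ Cen (v * w') → y ∈ Cen v ∧ y ∈ Cen w' := by
    intro y hy hyc
    have h1 : (v * w') * y = y * (v * w') := Subgroup.mem_centralizer_iff.1 hyc _ rfl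
    have ha := hCinv y hy v hvC
    have hb := hWinv y hy w' hw'W
    have h2 : (y * v * y⁻¹) * (y * w' * y⁻¹) = v * w' := by
      calc (y * v * y⁻¹) * (y * w' * y⁻¹) = y * (v * w') * y⁻¹ := by group
        _ = (v * w') * y * y⁻¹ := by rw [h1]
        _ = v * w' := by group
    have h3 : v⁻¹ * (y * v * y⁻¹) = w' * (y * w' * y⁻¹)⁻¹ := by
      calc v⁻¹ * (y * v * y⁻¹)
          = v⁻¹ * ((y * v * y⁻¹) * (y * w' * y⁻¹)) * (y * w' * y⁻¹)⁻¹ := by group
        _ = v⁻¹ * (v * w') * (y * w' * y⁻¹)⁻¹ := by rw [h2]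
        _ = w' * (y * w' * y⁻¹)⁻¹ := by group
    have h4 : v⁻¹ * (y * v * y⁻¹) ∈ (V1 ⊓ Subgroup.centralizer (Subgroup.zpowers z : Set G)) ⊓
        ⁅V1, Subgroup.zpowers z⁆ :=
      Subgroup.mem_inf.2 ⟨Subgroup.mul_mem _ (Subgroup.inv_mem _ hvC) ha,
        by rw [h3]; exact Subgroup.mul_mem _ hw'W (Subgroup.inv_mem _ hb)⟩
    rw [hbot, Subgroup.mem_bot] at h4
    have h5 : y * v * y⁻¹ = v := (inv_mul_eq_one.1 h4).symm
    have h6 : y * w' * y⁻¹ = w' := by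
      rw [h4] at h3
      exact (mul_inv_eq_one.1 h3.symm).symm
    refine ⟨Subgroup.mem_centralizer_iff.2 (fun h hh => ?_),
      Subgroup.mem_centralizer_iff.2 (fun h hh => ?_)⟩
    · rw [Set.mem_singleton_iff.1 hh]
      calc v * y = (y * v * y⁻¹) * y := by rw [h5]
        _ = y * v := by group
    · rw [Set.mem_singleton_iff.1 hh]
      calc w' * y = (y * w' * y⁻¹) * y := by rw [h6]
        _ = y * w' := by group
  have hle : Cen (v * w') ⊓ (S : Subgroup G) ≤ Cen v ⊓ (S : Subgroup G) :=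
    fun y hy => ⟨(hsplit y hy.2 hy.1).1, hy.2⟩
  have hge : Cen v ⊓ (S : Subgroup G) ≤ Cen (v * w') ⊓ (S : Subgroup G) := by
    have h1 := Subgroup.relIndex_mul_relIndex (Cen (v * w') ⊓ (S : Subgroup G))
      (Cen v ⊓ (S : Subgroup G)) (S : Subgroup G) hle inf_le_right
    rw [Subgroup.inf_relIndex_right, Subgroup.inf_relIndex_right, d1, d3] at h1
    have hd0 : d ≠ 0 := by
      rw [← d1]
      show ((Cen v).subgroupOf (S : Subgroup G)).index ≠ 0
      exact Subgroup.index_ne_zero_of_finite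
    have h2 : (Cen (v * w') ⊓ (S : Subgroup G)).relIndex (Cen v ⊓ (S : Subgroup G)) = 1 := by
      have h3 : (Cen (v * w') ⊓ (S : Subgroup G)).relIndex (Cen v ⊓ (S : Subgroup G)) * d =
          1 * d := by rw [h1, one_mul]
      exact Nat.eq_of_mul_eq_mul_right (Nat.pos_of_ne_zero hd0) h3
    exact Subgroup.relIndex_eq_one.1 h2
  have hz1 : z ∈ Cen v ⊓ (S : Subgroup G) :=
    ⟨Subgroup.mem_centralizer_iff.2
      (fun h hh => by rw [Set.mem_singleton_iff.1 hh]; exact hzv.symm), hzS⟩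
  have hz2 := (hsplit z hzS (hge hz1).1).2
  have hz3 : z * w' = w' * z := (Subgroup.mem_centralizer_iff.1 hz2 w' rfl).symm
  have h7 : w' ∈ (V1 ⊓ Subgroup.centralizer (Subgroup.zpowers z : Set G)) ⊓
      ⁅V1, Subgroup.zpowers z⁆ := Subgroup.mem_inf.2 ⟨hC w' hw'V hz3, hw'W⟩
  rw [hbot, Subgroup.mem_bot] at h7
  exact hw'1 h7

end Cfsg.Agent.Lib.Helper4.FC
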