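import Mathlib

set_option autoImplicit false
set_option linter.style.haveILetI false
set_option linter.unusedSectionVars false

namespace Cfsg.Agent.Lib.Helper26

section grossAux

/-- number theory for the exceptional configuration -/
theorem gross_nt {p q : ℕ} (hp : p.Prime) (hp2 : p ≠ 2) (hq : q.Prime) {d k n m : ℕ}
    (hk : 0 < k) (ha : q ^ d + 1 = p ^ k) (hkn : k ≤ n) (hm : 0 < m) (h : p ^ n ∣ q ^ m - 1) :
    (q ^ (2 * d)) ^ (p ^ (n - k)) ≤ q ^ m := by
  haveI : Fact p.Prime := ⟨hp⟩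
  have hq2 : 2 ≤ q := hq.two_le
  have hd : 0 < d := by
    rcases Nat.eq_zero_or_pos d with h0 | h0
    · exfalso
      subst h0
      have h1 : p ∣ 2 := by
        have : (2 : ℕ) = p ^ k := by simpa using ha
        rw [this]
        exact dvd_pow_self p hk.ne'
      exact hp2 ((Nat.prime_dvd_prime_iff_eq hp Nat.prime_two).mp h1)
    · exact h0
  have hqd : 2 ≤ q ^ d := le_trans hq2 (Nat.le_self_pow hd.ne' q)
  have hpk : p ^ k ∣ q ^ m - 1 := (pow_dvd_pow p hkn).trans h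
  have hone : ∀ e : ℕ, p ^ k ∣ q ^ e - 1 → ((q : ZMod (p ^ k)) ^ e = 1) := by
    intro e he
    have h1 : ((q ^ e - 1 + 1 : ℕ) : ZMod (p ^ k)) = 1 := by
      rw [Nat.cast_add, (ZMod.natCast_eq_zero_iff _ _).mpr he]
      simp
    rw [Nat.sub_add_cancel (Nat.one_le_pow _ _ hq.pos)] at h1
    simpa using h1
  have hfac : q ^ (2 * d) - 1 = (q ^ d - 1) * p ^ k := by
    rw [← ha, mul_comm 2 d, pow_mul]
    have : 1 ≤ q ^ d := by omega
    zify [this, Nat.one_le_pow 2 (q ^ d) (by omega)]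
    ring
  have h2d : p ^ k ∣ q ^ (2 * d) - 1 := by
    rw [hfac]
    exact dvd_mul_left _ _
  have hg : (q : ZMod (p ^ k)) ^ Nat.gcd m (2 * d) = 1 :=
    pow_gcd_eq_one.mpr ⟨hone m hpk, hone (2 * d) h2d⟩
  have hgpos : 0 < Nat.gcd m (2 * d) := Nat.gcd_pos_of_pos_left _ hm
  have hgd : p ^ k ∣ q ^ (Nat.gcd m (2 * d)) - 1 := by
    have h1 : ((q ^ (Nat.gcd m (2 * d)) - 1 : ℕ) : ZMod (p ^ k)) = 0 := by
      rw [Nat.cast_sub (Nat.one_le_pow _ _ hq.pos)]
      push_cast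
      rw [hg, sub_self]
    exact (ZMod.natCast_eq_zero_iff _ _).mp h1
  have hg2 : Nat.gcd m (2 * d) = 2 * d := by
    by_contra hne
    obtain ⟨t, ht⟩ := Nat.gcd_dvd_right m (2 * d)
    have ht2 : 2 ≤ t := by
      rcases t with _ | _ | t
      · omega
      · exfalso
        apply hne
        omega
      · omega
    have hle : Nat.gcd m (2 * d) ≤ d := by nlinarith
    have h1 : q ^ (Nat.gcd m (2 * d)) ≤ q ^ d := Nat.pow_le_pow_right hq.pos hle
    have h2 : 2 ≤ q ^ (Nat.gcd m (2 * d)) := le_trans hq2 (Nat.le_self_pow hgpos.ne' q)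
    have h3 := Nat.le_of_dvd (by omega) hgd
    omega
  obtain ⟨t, ht⟩ : 2 * d ∣ m := by
    rw [← hg2]
    exact Nat.gcd_dvd_left _ _
  have ht0 : t ≠ 0 := by
    rintro rfl
    omega
  have hndvd : ¬ p ∣ q ^ (2 * d) := by
    intro hdvd
    have h1 : p ∣ q := hp.dvd_of_dvd_pow hdvd
    have h2 : p ∣ q ^ d := dvd_pow h1 hd.ne'
    have h3 : p ∣ p ^ k := dvd_pow_self p hk.ne'
    rw [← ha] at h3
    have h4 : p ∣ 1 := (Nat.dvd_add_right h2).mp h3
    exact hp.one_lt.ne' (Nat.dvd_one.mp h4)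
  have hndvd2 : ¬ p ∣ q ^ d - 1 := by
    intro hdvd
    have h3 : p ∣ p ^ k := dvd_pow_self p hk.ne'
    rw [← ha] at h3
    have h4 : q ^ d + 1 = (q ^ d - 1) + 2 := by omega
    rw [h4] at h3
    have h5 : p ∣ 2 := (Nat.dvd_add_right hdvd).mp h3
    exact hp2 ((Nat.prime_dvd_prime_iff_eq hp Nat.prime_two).mp h5)
  have hval : padicValNat p (q ^ (2 * d) - 1) = k := by
    rw [hfac, padicValNat.mul (by omega) (pow_ne_zero _ hp.ne_zero),
      padicValNat.eq_zero_of_not_dvd hndvd2, padicValNat.prime_pow, zero_add]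
  have hlt : 1 < q ^ (2 * d) := by
    have : q ^ d ≤ q ^ (2 * d) := Nat.pow_le_pow_right hq.pos (by omega)
    omega
  have hLTE := padicValNat.pow_sub_pow (p := p) (x := q ^ (2 * d)) (y := 1)
    (hp.odd_of_ne_two hp2) hlt (by
      rw [hfac]
      exact Dvd.dvd.mul_left (dvd_pow_self p hk.ne') _) hndvd ht0
  rw [one_pow, hval, ← pow_mul, ← ht] at hLTE
  have hne0 : q ^ m - 1 ≠ 0 := by
    have : 2 ≤ q ^ m := le_trans hq2 (Nat.le_self_pow hm.ne' q)
    omega
  have hn : n ≤ padicValNat p (q ^ m - 1) := (padicValNat_dvd_iff_le hne0).mp h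
  have hnk : n - k ≤ padicValNat p t := by omega
  have hdvdt : p ^ (n - k) ∣ t := (padicValNat_dvd_iff_le ht0).mpr hnk
  have hle : p ^ (n - k) ≤ t := Nat.le_of_dvd (Nat.pos_of_ne_zero ht0) hdvdt
  calc (q ^ (2 * d)) ^ (p ^ (n - k)) ≤ (q ^ (2 * d)) ^ t :=
        Nat.pow_le_pow_right (by omega) hle
    _ = q ^ m := by rw [← pow_mul, ← ht]

/-- a subgroup acting freely by conjugation on a finite set -/
theorem gross_free_dvd {G : Type*} [Group G] (A : Subgroup G) (Y : Set G) [Finite Y]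
    (hY : ∀ a ∈ A, ∀ y ∈ Y, a * y * a⁻¹ ∈ Y)
    (hfree : ∀ a ∈ A, ∀ y ∈ Y, a * y * a⁻¹ = y → a = 1) :
    Nat.card A ∣ Nat.card Y := by
  letI : MulAction A Y :=
    { smul := fun a y => ⟨(a : G) * y * (a : G)⁻¹, hY a a.2 y y.2⟩
      one_smul := fun y => by
        apply Subtype.ext
        show ((1 : A) : G) * y * ((1 : A) : G)⁻¹ = y
        simp
      mul_smul := fun a b y => by
        apply Subtype.ext
        show ((a * b : A) : G) * y * ((a * b : A) : G)⁻¹ = (a : G) * ((b : G) * y * (b : G)⁻¹) * (a : G)⁻¹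
        simp only [Subgroup.coe_mul]
        group }
  have hstab : ∀ y : Y, MulAction.stabilizer A y = ⊥ := by
    intro y
    rw [eq_bot_iff]
    intro a ha
    rw [MulAction.mem_stabilizer_iff] at ha
    have h1 : (a : G) * y * (a : G)⁻¹ = y := congrArg Subtype.val ha
    rw [Subgroup.mem_bot]
    exact Subtype.ext (hfree a a.2 y y.2 h1)
  have e := MulAction.selfEquivOrbitsQuotientProd hstab
  rw [Nat.card_congr e, Nat.card_prod]
  exact dvd_mul_left _ _

end grossAux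

end Cfsg.Agent.Lib.Helper26
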