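import Mathlib
import Cfsg.Agent.Lib.Helper26.FpfTrace
import Cfsg.Agent.Lib.Helper26.FpfConj

set_option autoImplicit false

namespace Cfsg.Agent.Lib.Helper26

universe u

section hughesAbstract

theorem iterate_mod_period {V : Type*} {X : V → V} {p : ℕ} (hXp : X^[p] = id) (n : ℕ) :
    X^[n] = X^[n % p] := by
  conv_lhs => rw [← Nat.div_add_mod n p]
  rw [Function.iterate_add, Function.iterate_mul, hXp, Function.iterate_id]
  rfl

/-- two commuting operators `X`, `Y` on an abelian group such that `X` and all `X^i Y` have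
trivial norm `∏_{j<p} (·)^j`: then the group has exponent `p`. -/
theorem pow_eq_one_of_two_gen {V : Type*} [CommGroup V] (p : ℕ) (hp : p.Prime) (X Y : V → V)
    (hXY : ∀ v, X (Y v) = Y (X v)) (hXp : X^[p] = id)
    (hNX : ∀ u, ∏ i ∈ Finset.range p, X^[i] u = 1)
    (hN : ∀ i, i < p → ∀ u, ∏ j ∈ Finset.range p, (X^[i] ∘ Y)^[j] u = 1) (v : V) :
    v ^ p = 1 := by
  have hcomm : Function.Commute X Y := hXY
  have hN' : ∀ i, i < p → ∀ u, ∏ j ∈ Finset.range p, X^[i * j] (Y^[j] u) = 1 := by
    intro i hi u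
    rw [← hN i hi u]
    apply Finset.prod_congr rfl
    intro j _
    rw [(hcomm.iterate_left i).comp_iterate j, Function.iterate_mul]
    rfl
  have h1 : ∏ i ∈ Finset.range p, ∏ j ∈ Finset.range p, X^[i * j] (Y^[j] v) = 1 :=
    Finset.prod_eq_one (fun i hi => hN' i (Finset.mem_range.mp hi) v)
  rw [Finset.prod_comm, ← Finset.mul_prod_erase _ _ (Finset.mem_range.mpr hp.pos)] at h1
  have h2 : ∏ i ∈ Finset.range p, X^[i * 0] (Y^[0] v) = v ^ p := by
    simp
  have h3 : ∏ j ∈ (Finset.range p).erase 0, ∏ i ∈ Finset.range p, X^[i * j] (Y^[j] v) = 1 := by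
    apply Finset.prod_eq_one
    intro j hj
    have hj0 : 0 < j := Nat.pos_of_ne_zero (Finset.ne_of_mem_erase hj)
    have hjp : j < p := Finset.mem_range.mp (Finset.mem_of_mem_erase hj)
    have hcop : Nat.Coprime j p :=
      ((Nat.Prime.coprime_iff_not_dvd hp).mpr (Nat.not_dvd_of_pos_of_lt hj0 hjp)).symm
    rw [← hNX (Y^[j] v)]
    refine Finset.prod_bij (fun i _ => (i * j) % p) ?_ ?_ ?_ ?_
    · intro i _
      exact Finset.mem_range.mpr (Nat.mod_lt _ hp.pos)
    · intro a ha b hb hab
      have h4 : a * j ≡ b * j [MOD p] := hab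
      have h5 : a ≡ b [MOD p] := Nat.ModEq.cancel_right_of_coprime hcop.symm h4
      exact Nat.ModEq.eq_of_lt_of_lt h5 (Finset.mem_range.mp ha) (Finset.mem_range.mp hb)
    · intro b hb
      obtain ⟨m, hm, hmb⟩ := Nat.exists_mul_mod_eq_of_coprime b hcop hp.pos.ne'
      refine ⟨m, Finset.mem_range.mpr hm, ?_⟩
      rw [Nat.mul_comm, hmb]
      exact Nat.mod_eq_of_lt (Finset.mem_range.mp hb)
    · intro i _
      rw [iterate_mod_period hXp (i * j)]
  rw [h2, h3, mul_one] at h1
  exact h1

end hughesAbstract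

section hughes

variable {G : Type u} [Group G]

/-- the "norm" of `h` under conjugation by `g`. -/
theorem conj_norm (g h : G) (k : ℕ) :
    ((List.range k).map (fun i => g ^ i * h * (g ^ i)⁻¹)).prod = (h * g) ^ k * (g ^ k)⁻¹ := by
  induction k with
  | zero => simp
  | succ k ih =>
    rw [List.range_succ, List.map_append, List.prod_append, ih]
    simp only [List.map_cons, List.map_nil, List.prod_cons, List.prod_nil, mul_one]
    rw [pow_succ (h * g) k, pow_succ g k]
    group

/-- the norm of conjugation by `g` on an abelian subgroup, in the commutative group. -/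
theorem prod_conjAutOf_iterate (A : Subgroup G) (hA : ∀ a ∈ A, ∀ b ∈ A, a * b = b * a) (g : G)
    (h1 : ∀ x ∈ A, g * x * g⁻¹ ∈ A) (h2 : ∀ x ∈ A, g⁻¹ * x * g ∈ A) (p : ℕ) (hg : g ^ p = 1)
    (u : A) (hu : ((u : G) * g) ^ p = 1) :
    @Finset.prod ℕ A (@CommGroup.toCommMonoid A (commGroupOfComm A hA)) (Finset.range p)
      (fun j => (conjAutOf A g h1 h2)^[j] u) = 1 := by
  apply Subtype.ext
  rw [coe_prod_range A hA (fun j => (conjAutOf A g h1 h2)^[j] u) p]
  have h3 : (List.range p).map (fun k => (((conjAutOf A g h1 h2)^[k] u : A) : G)) =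
      (List.range p).map (fun i => g ^ i * (u : G) * (g ^ i)⁻¹) := by
    apply List.map_congr_left
    intro k _
    rw [conjAutOf_iterate]
  rw [h3, conj_norm, hu, hg]
  simp

/-- in a finite nilpotent group the centre of a Sylow subgroup is central. -/
theorem zc_sylow_le_center {M : Type u} [Group M] [Finite M] (hM : Group.IsNilpotent M) (q : ℕ)
    [Fact q.Prime] (P : Sylow q M) :
    (P : Subgroup M) ⊓ Subgroup.centralizer ((P : Subgroup M) : Set M) ≤ Subgroup.center M := by
  have hnorm : ∀ (t : ℕ) (_ : Fact t.Prime) (T : Sylow t M), (T : Subgroup M).Normal :=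
    ((Group.isNilpotent_of_finite_tfae (G := M)).out 0 3).mp hM
  have hPn := hnorm q inferInstance P
  have hPC : (P : Subgroup M) ≤ Subgroup.centralizer
      (((P : Subgroup M) ⊓ Subgroup.centralizer ((P : Subgroup M) : Set M) : Subgroup M) : Set M) := by
    intro x hx
    rw [Subgroup.mem_centralizer_iff]
    intro z hz
    exact ((Subgroup.mem_centralizer_iff.mp hz.2) x hx).symm
  have hle : ∀ (t : ℕ) (_ : Fact t.Prime), t ≠ q → ∀ T : Sylow t M,
      (T : Subgroup M) ≤ Subgroup.centralizer
        (((P : Subgroup M) ⊓ Subgroup.centralizer ((P : Subgroup M) : Set M) : Subgroup M) : Set M) := by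
    intro t _ htq T x hx
    rw [Subgroup.mem_centralizer_iff]
    intro z hz
    have hdisj := IsPGroup.disjoint_of_ne t q htq _ _ T.isPGroup' P.isPGroup'
    exact (Subgroup.commute_of_normal_of_disjoint _ _ (hnorm t inferInstance T) hPn hdisj
      x z hx hz.1).symm.eq
  have hidx : (Subgroup.centralizer
      (((P : Subgroup M) ⊓ Subgroup.centralizer ((P : Subgroup M) : Set M) : Subgroup M) : Set M)).index = 1 := by
    rw [Nat.eq_one_iff_not_exists_prime_dvd]
    intro d hd hdvd
    have hdf : Fact d.Prime := ⟨hd⟩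
    by_cases hdq : d = q
    · subst hdq
      exact P.not_dvd_index (hdvd.trans (Subgroup.index_dvd_of_le hPC))
    · obtain ⟨T, -⟩ : ∃ T : Sylow d M, T = T := ⟨default, rfl⟩
      exact T.not_dvd_index (hdvd.trans (Subgroup.index_dvd_of_le (hle d hdf hdq T)))
  have htop := Subgroup.index_eq_one.mp hidx
  intro z hz
  rw [Subgroup.mem_center_iff]
  intro g
  have hg : g ∈ Subgroup.centralizer
      (((P : Subgroup M) ⊓ Subgroup.centralizer ((P : Subgroup M) : Set M) : Subgroup M) : Set M) := by
    rw [htop]; trivial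
  exact ((Subgroup.mem_centralizer_iff.mp hg) z hz).symm

end hughes

end Cfsg.Agent.Lib.Helper26
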