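import Mathlib
import Cfsg.Agent.Lib.Helper26.FunctorMin
import Cfsg.Agent.Lib.Helper14.Thompson

/-!
# A self-centralizing characteristic subgroup deciding normal `p`-complements

For a functor `W` (abelian valued, `Cfsg.IsCharPFunctor`) satisfying a Glauberman–Thompson
type theorem (`N_G(W(P))` has a normal `p`-complement ⟹ `G` has one), every finite `p`-group `S`
has a characteristic subgroup `K` with `C_S(K) ≤ K` such that `N_G(K)` having a normal
`p`-complement forces `G` to have one, whenever `S` is a Sylow `p`-subgroup of `G`.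
`K` is built by recursion on `|S|`: with `W = W(S)`, if `C_S(W) < S` take `K(C_S(W))`,
otherwise (`W` central) take the preimage of `K(S / W)`.
-/

set_option autoImplicit false

namespace Cfsg.Agent.Lib.Helper26

open Cfsg

universe u

section emb

variable {p : ℕ} [Fact p.Prime]

/-- `ι` embeds `S` as a subgroup of index prime to `p`. -/
def SylEmb (p : ℕ) {S G : Type*} [Group S] [Group G] (ι : S →* G) : Prop :=
  Function.Injective ι ∧ ¬ p ∣ ι.range.index

/-- `K ≤ S` decides normal `p`-complements: whenever `S` is embedded as a Sylow `p`-subgroup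
of `G` and `N_G(K)` has a normal `p`-complement, so does `G`. -/
def Decides (p : ℕ) (S : Type u) [Group S] (K : Subgroup S) : Prop :=
  ∀ (G : Type u) [Group G] [Finite G] (ι : S →* G), SylEmb p ι →
    Npc p ↥(Subgroup.normalizer ((K.map ι : Subgroup G) : Set G)) → Npc p G

omit [Fact p.Prime] in
theorem coe_mem_normalizer_map_subtype {G : Type*} [Group G] {N : Subgroup G} {H : Subgroup N}
    {n : N} (hn : n ∈ Subgroup.normalizer (H : Set N)) :
    (n : G) ∈ Subgroup.normalizer ((H.map N.subtype : Subgroup G) : Set G) := by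
  rw [Subgroup.mem_normalizer_iff] at hn ⊢
  intro x
  constructor
  · rintro ⟨y, hy, rfl⟩
    exact ⟨n * y * n⁻¹, (hn y).mp hy, by simp⟩
  · rintro ⟨y, hy, hyx⟩
    have hyx' : (y : G) = (n : G) * x * (n : G)⁻¹ := hyx
    have hx : ((n⁻¹ * y * n : N) : G) = x := by
      push_cast
      rw [hyx']; group
    refine ⟨n⁻¹ * y * n, ?_, hx⟩
    have h2 : n * (n⁻¹ * y * n) * n⁻¹ = y := by group
    have h3 : n⁻¹ * y * n ∈ H := (hn (n⁻¹ * y * n)).mpr (by rw [h2]; exact hy)
    exact h3

theorem npc_normalizer_of_map_subtype {G : Type*} [Group G] (N : Subgroup G) (H : Subgroup N)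
    (L : Subgroup G) (hL : H.map N.subtype = L)
    (h : Npc p ↥(Subgroup.normalizer (L : Set G))) :
    Npc p ↥(Subgroup.normalizer (H : Set N)) := by
  refine Npc.of_injective_mem (N.subtype.comp (Subgroup.subtype _)) ?_ _ ?_ h
  · intro a b hab
    exact Subtype.ext (Subtype.ext hab)
  · intro a
    rw [← hL]; exact coe_mem_normalizer_map_subtype a.2

omit [Fact p.Prime] in
theorem SylEmb.codRestrict {S G : Type*} [Group S] [Group G] {ι : S →* G}
    (h : SylEmb p ι) (N : Subgroup G) (hN : ∀ s, ι s ∈ N) : SylEmb p (ι.codRestrict N hN) := by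
  refine ⟨fun a b hab => h.1 (congrArg Subtype.val hab), ?_⟩
  intro hdvd
  apply h.2
  have h1 : (ι.codRestrict N hN).range.map N.subtype = ι.range := by
    rw [MonoidHom.range_eq_map, Subgroup.map_map, MonoidHom.range_eq_map]; rfl
  rw [← h1, Subgroup.index_map_subtype]
  exact Dvd.dvd.mul_right hdvd _

theorem gt_emb {W : ∀ (Q : Type u) [Group Q], Subgroup Q} (hW : IsCharPFunctor.{u} p W)
    (hGT : ∀ (G : Type u) [Group G] [Finite G] (P : Sylow p G),
      Npc p ↥(Subgroup.normalizer (inducedFunctor W (P : Subgroup G) : Set G)) → Npc p G)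
    {S G : Type u} [Group S] [Finite S] [Group G] [Finite G] (hS : IsPGroup p S) (ι : S →* G)
    (hι : SylEmb p ι)
    (h : Npc p ↥(Subgroup.normalizer (((W S).map ι : Subgroup G) : Set G))) : Npc p G := by
  have hP : IsPGroup p ι.range := by
    rw [MonoidHom.range_eq_map]; exact (hS.to_subgroup ⊤).map ι
  have key : inducedFunctor W (ι.range) = (W S).map ι := by
    have h1 := ind_map hW ι (⊤ : Subgroup S) (hS.to_subgroup ⊤)
      (fun u _ hu => hι.1 (by rw [hu, map_one]))
    rw [← MonoidHom.range_eq_map] at h1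
    rw [h1]
    congr 1
    unfold inducedFunctor
    have h2 := hW.2 ↥(⊤ : Subgroup S) S (hS.to_subgroup ⊤) Subgroup.topEquiv
    rw [← h2]; rfl
  apply hGT G (hP.toSylow hι.2)
  rw [IsPGroup.toSylow_coe, key]; exact h

end emb

section basic

variable {p : ℕ} [Fact p.Prime]

omit [Fact p.Prime] in
/-- the image of a characteristic subgroup is normalized by the normalizer of the image of the
whole group. -/
theorem normalizer_range_le_normalizer_map {S G : Type*} [Group S] [Finite S] [Group G]
    (ι : S →* G) (hι : Function.Injective ι) (K : Subgroup S) [hK : K.Characteristic] :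
    Subgroup.normalizer (ι.range : Set G) ≤
      Subgroup.normalizer ((K.map ι : Subgroup G) : Set G) := by
  intro g hg
  have hg' := Subgroup.mem_normalizer_iff.mp hg
  -- the automorphism of `S` induced by conjugation with `g`
  have hex : ∀ s : S, ∃ t : S, ι t = g * ι s * g⁻¹ := fun s =>
    (hg' (ι s)).mp ⟨s, rfl⟩
  choose f hf using hex
  have hfmul : ∀ a b, f (a * b) = f a * f b := by
    intro a b
    apply hι
    rw [hf, map_mul, map_mul, hf, hf]; group
  let F : S →* S := MonoidHom.mk' f hfmul
  have hFinj : Function.Injective F := by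
    intro a b hab
    have h1 : ι (f a) = ι (f b) := congrArg ι hab
    rw [hf, hf] at h1
    apply hι
    have h2 : g⁻¹ * (g * ι a * g⁻¹) * g = g⁻¹ * (g * ι b * g⁻¹) * g := by rw [h1]
    simpa [mul_assoc] using h2
  have hFbij : Function.Bijective F := ⟨hFinj, Finite.injective_iff_surjective.mp hFinj⟩
  let φ : S ≃* S := MulEquiv.ofBijective F hFbij
  have hφ : ∀ s, ι (φ s) = g * ι s * g⁻¹ := hf
  have hKφ : K.map φ.toMonoidHom = K := Subgroup.characteristic_iff_map_eq.mp hK φ
  rw [Subgroup.mem_normalizer_iff]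
  intro x
  constructor
  · rintro ⟨k, hk, rfl⟩
    refine ⟨φ k, ?_, hφ k⟩
    rw [← hKφ]; exact ⟨k, hk, rfl⟩
  · rintro ⟨k, hk, hkx⟩
    have hk' : k ∈ K.map φ.toMonoidHom := by rw [hKφ]; exact hk
    obtain ⟨k0, hk0, hk0k⟩ := hk'
    refine ⟨k0, hk0, ?_⟩
    have h1 : ι k = g * ι k0 * g⁻¹ := by rw [← hφ k0]; exact congrArg ι hk0k.symm
    have h2 : g * ι k0 * g⁻¹ = g * x * g⁻¹ := by rw [← h1]; exact hkx
    have h3 : g⁻¹ * (g * ι k0 * g⁻¹) * g = g⁻¹ * (g * x * g⁻¹) * g := by rw [h2]
    simpa [mul_assoc] using h3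

/-- a normal `p'`-subgroup into which every element has a `p`-power is a normal
`p`-complement. -/
theorem npc_of_pow_mem {G : Type*} [Group G] [Finite G] (E : Subgroup G) [E.Normal]
    (hE : (Nat.card E).Coprime p) (h : ∀ g : G, ∃ j : ℕ, g ^ p ^ j ∈ E) : Npc p G := by
  refine ⟨E, inferInstance, hE, ?_⟩
  have hpg : IsPGroup p (G ⧸ E) := by
    intro x
    induction x using QuotientGroup.induction_on with
    | H g =>
      obtain ⟨j, hj⟩ := h g
      exact ⟨j, by rw [← QuotientGroup.mk_pow]; exact (QuotientGroup.eq_one_iff _).mpr hj⟩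
  obtain ⟨k, hk⟩ := IsPGroup.iff_card.mp hpg
  exact ⟨k, by rw [Subgroup.index_eq_card]; exact hk⟩

/-- some `p`-power of any element of a finite group is a `p'`-element. -/
theorem exists_pow_coprime {G : Type*} [Group G] [Finite G] (g : G) :
    ∃ a : ℕ, (orderOf (g ^ p ^ a)).Coprime p := by
  have hp : p.Prime := Fact.out
  have hpos : orderOf g ≠ 0 := (orderOf_pos g).ne'
  obtain ⟨a, m, hm, hn⟩ := Nat.exists_eq_pow_mul_and_not_dvd hpos p hp.ne_one
  refine ⟨a, ?_⟩
  have h1 : (g ^ p ^ a) ^ m = 1 := by
    rw [← pow_mul, ← hn, pow_orderOf_eq_one]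
  have h2 : orderOf (g ^ p ^ a) ∣ m := orderOf_dvd_of_pow_eq_one h1
  exact Nat.Coprime.coprime_dvd_left h2 ((Nat.Prime.coprime_iff_not_dvd hp).mpr hm).symm

end basic

section frattini

variable {p : ℕ} [Fact p.Prime]

/-- Frattini argument for normal `p`-complements: `C ⊴ G` with a normal `p`-complement, `Q` a
Sylow `p`-subgroup of `C` whose normalizer has a normal `p`-complement. -/
theorem npc_of_normal_frattini {G : Type*} [Group G] [Finite G] (C : Subgroup G) [C.Normal]
    (Q : Subgroup G) (hQC : Q ≤ C) (hQ : IsPGroup p Q) (hidx : ¬ p ∣ (Q.subgroupOf C).index)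
    (hC : Npc p ↥C) (hN : Npc p ↥(Subgroup.normalizer (Q : Set G))) : Npc p G := by
  obtain ⟨N, hNn, hcop, k, hk⟩ := hC
  haveI := hNn
  obtain ⟨E0, hE0n, hE0c, hE0⟩ := Npc.exists_normal C ⟨N, hNn, hcop, k, hk⟩
  haveI := hE0n
  have hQp : IsPGroup p (Q.subgroupOf C) := hQ.comap_subtype
  obtain ⟨PC, hPC⟩ : ∃ PC : Sylow p C, (PC : Subgroup C) = Q.subgroupOf C :=
    ⟨hQp.toSylow hidx, IsPGroup.toSylow_coe _ _⟩
  have hPCmap : (PC : Subgroup C).map C.subtype = Q := by
    rw [hPC]; exact Subgroup.map_subgroupOf_eq_of_le hQC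
  have hcompl : N.IsComplement' (PC : Subgroup C) :=
    Cfsg.Agent.Lib.Helper2.isComplement'_of_normal_coprime_index_pow PC N hcop hk
  have hsup : N ⊔ (PC : Subgroup C) = ⊤ := hcompl.sup_eq_top
  have hCle : C ≤ E0 ⊔ Q := by
    intro c hc
    have h1 : (⟨c, hc⟩ : C) ∈ N ⊔ (PC : Subgroup C) := by rw [hsup]; exact Subgroup.mem_top _
    have h2 : c ∈ (N ⊔ (PC : Subgroup C)).map C.subtype := ⟨⟨c, hc⟩, h1, rfl⟩
    rw [Subgroup.map_sup, hPCmap] at h2
    refine (sup_le_sup_right ?_ Q) h2
    rintro _ ⟨x, hx, rfl⟩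
    refine hE0 x x.2 ?_
    rw [Subgroup.orderOf_coe]
    exact Nat.Coprime.coprime_dvd_left (Subgroup.orderOf_dvd_natCard N hx) hcop
  have hfr : Subgroup.normalizer (Q : Set G) ⊔ C = ⊤ := by
    have := Sylow.normalizer_sup_eq_top PC
    rwa [hPCmap] at this
  have htop : Subgroup.normalizer (Q : Set G) ⊔ E0 = ⊤ := by
    rw [eq_top_iff, ← hfr]
    exact sup_le le_sup_left
      (hCle.trans (sup_le le_sup_right (Subgroup.le_normalizer.trans le_sup_left)))
  apply Npc.of_quotient E0 hE0c
  refine Npc.of_surjective ((QuotientGroup.mk' E0).comp (Subgroup.subtype _)) ?_ hN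
  intro x
  induction x using QuotientGroup.induction_on with
  | H g =>
    have hg : g ∈ Subgroup.normalizer (Q : Set G) ⊔ E0 := by rw [htop]; exact Subgroup.mem_top g
    rw [← SetLike.mem_coe, Subgroup.mul_normal] at hg
    obtain ⟨n, hn, e, he, rfl⟩ := Set.mem_mul.mp hg
    refine ⟨⟨n, hn⟩, ?_⟩
    simp only [MonoidHom.comp_apply, Subgroup.coe_subtype, QuotientGroup.mk'_apply]
    rw [QuotientGroup.eq]
    simpa using he

/-- a central `p`-subgroup does not affect normal `p`-complements. -/
theorem npc_of_central_quotient {G : Type*} [Group G] [Finite G] (Z : Subgroup G) [Z.Normal]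
    (hZc : Z ≤ Subgroup.center G) (hZ : IsPGroup p Z) (h : Npc p (G ⧸ Z)) : Npc p G := by
  have hp : p.Prime := Fact.out
  obtain ⟨Nb, hNbn, hcop, k, hk⟩ := h
  haveI := hNbn
  obtain ⟨L, hLdef⟩ : ∃ L : Subgroup G, L = Nb.comap (QuotientGroup.mk' Z) := ⟨_, rfl⟩
  haveI hLn : L.Normal := by rw [hLdef]; exact hNbn.comap _
  have hZL : Z ≤ L := by
    intro z hz
    rw [hLdef, Subgroup.mem_comap]
    have : QuotientGroup.mk' Z z = 1 := by
      rw [QuotientGroup.mk'_apply, QuotientGroup.eq_one_iff]; exact hz
    rw [this]; exact one_mem _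
  have hcardL : Nat.card L = Nat.card Z * Nat.card Nb := by rw [hLdef]; exact card_comap_mk' Z Nb
  have hZLp : IsPGroup p (Z.subgroupOf L) := hZ.comap_subtype
  have hidx : ¬ p ∣ (Z.subgroupOf L).index := by
    have h1 : Nat.card (Z.subgroupOf L) * (Z.subgroupOf L).index = Nat.card L :=
      Subgroup.card_mul_index _
    have h2 : Nat.card (Z.subgroupOf L) = Nat.card Z :=
      Nat.card_congr (Subgroup.subgroupOfEquivOfLe hZL).toEquiv
    rw [h2, hcardL] at h1
    have h3 : (Z.subgroupOf L).index = Nat.card Nb := Nat.eq_of_mul_eq_mul_left Nat.card_pos h1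
    rw [h3]
    intro hd
    have h4 := Nat.dvd_gcd hd (dvd_refl p)
    rw [hcop] at h4
    exact hp.one_lt.ne' (Nat.dvd_one.mp h4)
  obtain ⟨PL, hPLc⟩ : ∃ PL : Sylow p L, (PL : Subgroup L) = Z.subgroupOf L :=
    ⟨hZLp.toSylow hidx, IsPGroup.toSylow_coe _ _⟩
  have hPL : Subgroup.normalizer ((PL : Subgroup L) : Set L) ≤
      Subgroup.centralizer ((PL : Subgroup L) : Set L) := by
    intro x _
    rw [Subgroup.mem_centralizer_iff]
    intro y hy
    have hyZ : (y : G) ∈ Z := by
      have hy' : y ∈ (PL : Subgroup L) := hy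
      rw [hPLc] at hy'
      exact Subgroup.mem_subgroupOf.mp hy'
    have h1 := Subgroup.mem_center_iff.mp (hZc hyZ) (x : G)
    exact Subtype.ext h1.symm
  have hLnpc : Npc p ↥L :=
    npc_of_hasNPC ⟨PL, _, inferInstance, MonoidHom.ker_transferSylow_isComplement' PL hPL⟩
  obtain ⟨E0, hE0n, hE0c, hE0⟩ := Npc.exists_normal L hLnpc
  haveI := hE0n
  apply npc_of_pow_mem E0 hE0c
  intro g
  have h1 : g ^ p ^ k ∈ L := by
    rw [hLdef, Subgroup.mem_comap, map_pow, ← hk]
    exact Subgroup.pow_index_mem Nb _
  obtain ⟨a, ha⟩ := exists_pow_coprime (p := p) (g ^ p ^ k)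
  refine ⟨k + a, ?_⟩
  rw [pow_add, pow_mul]
  exact hE0 _ (Subgroup.pow_mem _ h1 _) ha

end frattini

section char

theorem characteristic_map_subtype {S : Type*} [Group S] (S1 : Subgroup S)
    [h1 : S1.Characteristic] (K1 : Subgroup S1) [hK1 : K1.Characteristic] :
    (K1.map S1.subtype).Characteristic := by
  rw [Subgroup.characteristic_iff_map_le]
  intro φ
  have hS1 : S1.map φ.toMonoidHom = S1 := Subgroup.characteristic_iff_map_eq.mp h1 φ
  let φ1 : S1 ≃* S1 := (φ.subgroupMap S1).trans (MulEquiv.subgroupCongr hS1)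
  have hφ1 : ∀ s : S1, ((φ1 s : S1) : S) = φ s := fun s => rfl
  have hK : K1.map φ1.toMonoidHom ≤ K1 := Subgroup.characteristic_iff_map_le.mp hK1 φ1
  rintro _ ⟨_, ⟨k, hk, rfl⟩, rfl⟩
  exact ⟨φ1 k, hK ⟨k, hk, rfl⟩, hφ1 k⟩

theorem characteristic_comap_mk' {S : Type*} [Group S] (W : Subgroup S) [hW : W.Characteristic]
    (Kb : Subgroup (S ⧸ W)) [hKb : Kb.Characteristic] :
    (Kb.comap (QuotientGroup.mk' W)).Characteristic := by
  rw [Subgroup.characteristic_iff_le_comap]
  intro φ x hx
  rw [Subgroup.mem_comap] at hx ⊢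
  have hWφ : W.map φ.toMonoidHom = W := Subgroup.characteristic_iff_map_eq.mp hW φ
  let φb : S ⧸ W ≃* S ⧸ W := QuotientGroup.congr W W φ hWφ
  have h1 : Kb ≤ Kb.comap φb.toMonoidHom := Subgroup.characteristic_iff_le_comap.mp hKb φb
  have h2 := h1 hx
  rw [Subgroup.mem_comap] at h2
  exact h2

end char

section main

variable {p : ℕ} [Fact p.Prime]

omit [Fact p.Prime] in
theorem char_of_functor {W : ∀ (Q : Type u) [Group Q], Subgroup Q} (hW : IsCharPFunctor.{u} p W)
    {S : Type u} [Group S] [Finite S] (hS : IsPGroup p S) : (W S).Characteristic := by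
  rw [Subgroup.characteristic_iff_map_eq]
  intro φ
  exact hW.2 S S hS φ

/-- induction on the order of the ambient group: to prove `Decides`, one may assume that
`W(S)` is normal in the ambient group. -/
theorem decides_of_step {W : ∀ (Q : Type u) [Group Q], Subgroup Q} (hW : IsCharPFunctor.{u} p W)
    (hGT : ∀ (G : Type u) [Group G] [Finite G] (P : Sylow p G),
      Npc p ↥(Subgroup.normalizer (inducedFunctor W (P : Subgroup G) : Set G)) → Npc p G)
    {S : Type u} [Group S] [Finite S] (hS : IsPGroup p S) (K : Subgroup S)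
    (step : ∀ (G : Type u) [Group G] [Finite G] (ι : S →* G), SylEmb p ι →
      (∀ (G' : Type u) [Group G'] [Finite G'] (ι' : S →* G'), Nat.card G' < Nat.card G →
        SylEmb p ι' → Npc p ↥(Subgroup.normalizer ((K.map ι' : Subgroup G') : Set G')) →
          Npc p G') →
      Subgroup.normalizer (((W S).map ι : Subgroup G) : Set G) = ⊤ →
      Npc p ↥(Subgroup.normalizer ((K.map ι : Subgroup G) : Set G)) → Npc p G) :
    Decides p S K := by
  have key : ∀ n : ℕ, ∀ (G : Type u) [Group G] [Finite G] (ι : S →* G), Nat.card G = n →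
      SylEmb p ι → Npc p ↥(Subgroup.normalizer ((K.map ι : Subgroup G) : Set G)) → Npc p G := by
    intro n
    induction n using Nat.strong_induction_on with
    | _ n ih =>
      intro G _ _ ι hn hι h
      by_cases htop : Subgroup.normalizer (((W S).map ι : Subgroup G) : Set G) = ⊤
      · refine step G ι hι ?_ htop h
        intro G' _ _ ι' hlt hι' h'
        exact ih (Nat.card G') (hn ▸ hlt) G' ι' rfl hι' h'
      · haveI hWc : (W S).Characteristic := char_of_functor hW hS
        have hWn : (W S).Normal := inferInstance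
        have hmem : ∀ s, ι s ∈ Subgroup.normalizer (((W S).map ι : Subgroup G) : Set G) := by
          intro s
          rw [Subgroup.mem_normalizer_iff]
          intro x
          constructor
          · rintro ⟨w, hw, rfl⟩
            exact ⟨s * w * s⁻¹, hWn.conj_mem w hw s, by simp⟩
          · rintro ⟨w, hw, hwx⟩
            refine ⟨s⁻¹ * w * s, ?_, ?_⟩
            · have := hWn.conj_mem w hw s⁻¹
              simpa using this
            · rw [map_mul, map_mul, hwx, map_inv]; group
        have hlt : Nat.card ↥(Subgroup.normalizer (((W S).map ι : Subgroup G) : Set G)) <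
            Nat.card G := by
          refine lt_of_le_of_ne (Subgroup.card_le_card_group _) ?_
          intro h
          exact htop (Subgroup.eq_top_of_card_eq _ h)
        have h1 : Npc p ↥(Subgroup.normalizer (((W S).map ι : Subgroup G) : Set G)) := by
          apply ih _ (hn ▸ hlt) _ (ι.codRestrict _ hmem) rfl (hι.codRestrict _ hmem)
          apply npc_normalizer_of_map_subtype _ _ (K.map ι) ?_ h
          rw [Subgroup.map_map]; rfl
        exact gt_emb hW hGT hS ι hι h1
  intro G _ _ ι hι h
  exact key (Nat.card G) G ι rfl hι h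

omit [Fact p.Prime] in
theorem isPGroup_range {S G : Type*} [Group S] [Group G] (hS : IsPGroup p S) (ι : S →* G) :
    IsPGroup p ι.range := by
  rw [MonoidHom.range_eq_map]; exact (hS.to_subgroup ⊤).map ι

/-- Case A: `C_S(W(S))` is proper; lift `K₁` from `C_S(W(S))`. -/
theorem decides_caseA {W : ∀ (Q : Type u) [Group Q], Subgroup Q} (hW : IsCharPFunctor.{u} p W)
    (hGT : ∀ (G : Type u) [Group G] [Finite G] (P : Sylow p G),
      Npc p ↥(Subgroup.normalizer (inducedFunctor W (P : Subgroup G) : Set G)) → Npc p G)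
    {S : Type u} [Group S] [Finite S] (hS : IsPGroup p S)
    (K1 : Subgroup ↥(Subgroup.centralizer ((W S : Subgroup S) : Set S))) [K1.Characteristic]
    (hK1 : Decides p ↥(Subgroup.centralizer ((W S : Subgroup S) : Set S)) K1) :
    Decides p S (K1.map (Subgroup.centralizer ((W S : Subgroup S) : Set S)).subtype) := by
  apply decides_of_step hW hGT hS
  intro G _ _ ι hι _ hNtop h
  haveI hZn : ((W S).map ι : Subgroup G).Normal := Subgroup.normalizer_eq_top_iff.mp hNtop
  obtain ⟨C, hCdef⟩ : ∃ C : Subgroup G,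
      C = Subgroup.centralizer (((W S).map ι : Subgroup G) : Set G) := ⟨_, rfl⟩
  haveI hCn : C.Normal := by rw [hCdef]; exact Subgroup.normal_centralizer
  have hmem : ∀ s : ↥(Subgroup.centralizer ((W S : Subgroup S) : Set S)),
      (ι.comp (Subgroup.centralizer ((W S : Subgroup S) : Set S)).subtype) s ∈ C := by
    intro s
    rw [hCdef, Subgroup.mem_centralizer_iff]
    rintro _ ⟨w, hw, rfl⟩
    have h1 := Subgroup.mem_centralizer_iff.mp s.2 w hw
    simp only [MonoidHom.comp_apply, Subgroup.coe_subtype]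
    rw [← map_mul, ← map_mul, h1]
  have hinj0 : Function.Injective
      (ι.comp (Subgroup.centralizer ((W S : Subgroup S) : Set S)).subtype) := by
    intro a b hab
    exact Subtype.ext (hι.1 hab)
  obtain ⟨ι1, hι1⟩ : ∃ ι1 : ↥(Subgroup.centralizer ((W S : Subgroup S) : Set S)) →* ↥C,
      ι1 = (ι.comp (Subgroup.centralizer ((W S : Subgroup S) : Set S)).subtype).codRestrict C
        hmem := ⟨_, rfl⟩
  have hcomp : C.subtype.comp ι1 =
      ι.comp (Subgroup.centralizer ((W S : Subgroup S) : Set S)).subtype := by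
    rw [hι1]; exact MonoidHom.ext fun _ => rfl
  have hinj1 : Function.Injective ι1 := by
    intro a b hab
    apply hinj0
    rw [← hcomp]
    simp only [MonoidHom.comp_apply, hab]
  have hP : IsPGroup p ι.range := isPGroup_range hS ι
  obtain ⟨PC, hPC⟩ := Cfsg.Agent.Lib.Helper14.exists_sylow_map_eq_inf C (hP.toSylow hι.2)
  rw [IsPGroup.toSylow_coe] at hPC
  have hrange1 : ι1.range.map C.subtype =
      (ι.comp (Subgroup.centralizer ((W S : Subgroup S) : Set S)).subtype).range := by
    rw [MonoidHom.range_eq_map, Subgroup.map_map, hcomp, MonoidHom.range_eq_map]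
  have hrange2 : (ι.comp (Subgroup.centralizer ((W S : Subgroup S) : Set S)).subtype).range =
      ι.range ⊓ C := by
    ext x
    constructor
    · rintro ⟨s, rfl⟩
      exact ⟨⟨(s : S), rfl⟩, hmem s⟩
    · rintro ⟨⟨s, rfl⟩, hxC⟩
      have hs : s ∈ Subgroup.centralizer ((W S : Subgroup S) : Set S) := by
        rw [Subgroup.mem_centralizer_iff]
        intro w hw
        rw [hCdef] at hxC
        have h1 := Subgroup.mem_centralizer_iff.mp hxC (ι w) ⟨w, hw, rfl⟩
        apply hι.1
        rw [map_mul, map_mul, h1]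
      exact ⟨⟨s, hs⟩, rfl⟩
  have hrange : ι1.range = (PC : Subgroup C) := by
    apply Subgroup.map_injective C.subtype_injective
    rw [hPC, hrange1, hrange2]
  have hSyl1 : SylEmb p ι1 := ⟨hinj1, by rw [hrange]; exact PC.not_dvd_index⟩
  have hL : (K1.map ι1).map C.subtype =
      (K1.map (Subgroup.centralizer ((W S : Subgroup S) : Set S)).subtype).map ι := by
    rw [Subgroup.map_map, Subgroup.map_map, hcomp]
  have hC : Npc p ↥C := hK1 ↥C ι1 hSyl1 (npc_normalizer_of_map_subtype C (K1.map ι1) _ hL h)
  have hQC : (ι.comp (Subgroup.centralizer ((W S : Subgroup S) : Set S)).subtype).range ≤ C := by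
    rw [hrange2]; exact inf_le_right
  have hidx : ¬ p ∣ ((ι.comp
      (Subgroup.centralizer ((W S : Subgroup S) : Set S)).subtype).range.subgroupOf C).index := by
    have h1 : (ι.comp
        (Subgroup.centralizer ((W S : Subgroup S) : Set S)).subtype).range.subgroupOf C =
          ι1.range := by
      apply Subgroup.map_injective C.subtype_injective
      rw [Subgroup.map_subgroupOf_eq_of_le hQC, hrange1]
    rw [h1]; exact hSyl1.2
  refine npc_of_normal_frattini C _ hQC (isPGroup_range (hS.to_subgroup _) _) hidx hC ?_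
  have h' : Npc p ↥(Subgroup.normalizer ((K1.map
      (ι.comp (Subgroup.centralizer ((W S : Subgroup S) : Set S)).subtype) : Subgroup G) :
        Set G)) := by
    rw [← Subgroup.map_map]; exact h
  exact Npc.of_le (normalizer_range_le_normalizer_map _ hinj0 K1) h'

/-- Case B: `W(S)` is central; pull `K̄` back from `S / W(S)`. -/
theorem decides_caseB {W : ∀ (Q : Type u) [Group Q], Subgroup Q} (hW : IsCharPFunctor.{u} p W)
    (hGT : ∀ (G : Type u) [Group G] [Finite G] (P : Sylow p G),
      Npc p ↥(Subgroup.normalizer (inducedFunctor W (P : Subgroup G) : Set G)) → Npc p G)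
    {S : Type u} [Group S] [Finite S] (hS : IsPGroup p S) [hWc : (W S).Characteristic]
    (hcen : W S ≤ Subgroup.center S)
    (Kb : Subgroup (S ⧸ W S)) [Kb.Characteristic] (hKb : Decides p (S ⧸ W S) Kb) :
    Decides p S (Kb.comap (QuotientGroup.mk' (W S))) := by
  haveI hKchar : (Kb.comap (QuotientGroup.mk' (W S))).Characteristic :=
    characteristic_comap_mk' (W S) Kb
  apply decides_of_step hW hGT hS
  intro G _ _ ι hι IH hNtop h
  haveI hZn : ((W S).map ι : Subgroup G).Normal := Subgroup.normalizer_eq_top_iff.mp hNtop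
  obtain ⟨C, hCdef⟩ : ∃ C : Subgroup G,
      C = Subgroup.centralizer (((W S).map ι : Subgroup G) : Set G) := ⟨_, rfl⟩
  haveI hCn : C.Normal := by rw [hCdef]; exact Subgroup.normal_centralizer
  have hmem : ∀ s : S, ι s ∈ C := by
    intro s
    rw [hCdef, Subgroup.mem_centralizer_iff]
    rintro _ ⟨w, hw, rfl⟩
    have h1 := Subgroup.mem_center_iff.mp (hcen hw) s
    rw [← map_mul, ← map_mul, h1]
  have hP : IsPGroup p ι.range := isPGroup_range hS ι
  by_cases hCtop : C = ⊤
  · -- `W(S)` is central in `G`: pass to the quotient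
    obtain ⟨Z, hZdef⟩ : ∃ Z : Subgroup G, Z = (W S).map ι := ⟨_, rfl⟩
    haveI hZn' : Z.Normal := by rw [hZdef]; exact hZn
    have hZc : Z ≤ Subgroup.center G := by
      intro z hz
      rw [Subgroup.mem_center_iff]
      intro g
      have hg : g ∈ C := by rw [hCtop]; exact Subgroup.mem_top g
      rw [hCdef] at hg
      rw [hZdef] at hz
      exact (Subgroup.mem_centralizer_iff.mp hg z hz).symm
    have hZp : IsPGroup p Z := by rw [hZdef]; exact (hS.to_subgroup (W S)).map ι
    have hle : W S ≤ Z.comap ι := by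
      intro w hw
      rw [Subgroup.mem_comap, hZdef]
      exact Subgroup.mem_map_of_mem ι hw
    obtain ⟨ιb, hιbdef⟩ : ∃ ιb : S ⧸ W S →* G ⧸ Z, ιb = QuotientGroup.map (W S) Z ι hle :=
      ⟨_, rfl⟩
    have hιb : ∀ s : S, ιb (QuotientGroup.mk' (W S) s) = QuotientGroup.mk' Z (ι s) := by
      intro s; rw [hιbdef]; rfl
    have hSylb : SylEmb p ιb := by
      constructor
      · rw [injective_iff_map_eq_one]
        intro x hx
        obtain ⟨s, rfl⟩ := QuotientGroup.mk'_surjective (W S) x
        rw [hιb, QuotientGroup.mk'_apply, QuotientGroup.eq_one_iff, hZdef] at hx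
        obtain ⟨w, hw, hws⟩ := hx
        have : w = s := hι.1 hws
        rw [QuotientGroup.mk'_apply, QuotientGroup.eq_one_iff, ← this]
        exact hw
      · have hr : ιb.range = ι.range.map (QuotientGroup.mk' Z) := by
          ext y
          constructor
          · rintro ⟨x, rfl⟩
            obtain ⟨s, rfl⟩ := QuotientGroup.mk'_surjective (W S) x
            exact ⟨ι s, ⟨s, rfl⟩, (hιb s).symm⟩
          · rintro ⟨_, ⟨s, rfl⟩, rfl⟩
            exact ⟨QuotientGroup.mk' (W S) s, hιb s⟩
        rw [hr]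
        intro hd
        exact hι.2 (hd.trans (Subgroup.index_map_dvd _ (QuotientGroup.mk'_surjective Z)))
    have hcomap : (Kb.map ιb).comap (QuotientGroup.mk' Z) =
        (Kb.comap (QuotientGroup.mk' (W S))).map ι := by
      ext g
      rw [Subgroup.mem_comap]
      constructor
      · rintro ⟨x, hx, hxg⟩
        obtain ⟨s, rfl⟩ := QuotientGroup.mk'_surjective (W S) x
        rw [hιb] at hxg
        have h1 : (ι s)⁻¹ * g ∈ Z := by
          have := QuotientGroup.eq.mp hxg
          exact this
        rw [hZdef] at h1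
        obtain ⟨w, hw, hwg⟩ := h1
        refine ⟨s * w, ?_, ?_⟩
        · show QuotientGroup.mk' (W S) (s * w) ∈ Kb
          rw [map_mul]
          refine Subgroup.mul_mem _ hx ?_
          have : QuotientGroup.mk' (W S) w = 1 := by
            rw [QuotientGroup.mk'_apply, QuotientGroup.eq_one_iff]; exact hw
          rw [this]; exact one_mem _
        · rw [map_mul, hwg]; group
      · rintro ⟨k, hk, rfl⟩
        exact ⟨QuotientGroup.mk' (W S) k, hk, hιb k⟩
    have hnorm : Subgroup.normalizer (((Kb.comap (QuotientGroup.mk' (W S))).map ι : Subgroup G) :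
        Set G) = (Subgroup.normalizer ((Kb.map ιb : Subgroup (G ⧸ Z)) : Set (G ⧸ Z))).comap
          (QuotientGroup.mk' Z) := by
      rw [Subgroup.comap_normalizer_eq_of_surjective _ (QuotientGroup.mk'_surjective Z), hcomap]
    have hNb : Npc p ↥(Subgroup.normalizer ((Kb.map ιb : Subgroup (G ⧸ Z)) : Set (G ⧸ Z))) := by
      have hm : ∀ x : ↥(Subgroup.normalizer
          (((Kb.comap (QuotientGroup.mk' (W S))).map ι : Subgroup G) : Set G)),
          ((QuotientGroup.mk' Z).comp (Subgroup.subtype _)) x ∈
            Subgroup.normalizer ((Kb.map ιb : Subgroup (G ⧸ Z)) : Set (G ⧸ Z)) := by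
        rintro ⟨x, hx⟩
        have hx' : x ∈ (Subgroup.normalizer ((Kb.map ιb : Subgroup (G ⧸ Z)) :
            Set (G ⧸ Z))).comap (QuotientGroup.mk' Z) := by
          rw [← hnorm]; exact hx
        exact hx'
      refine Npc.of_surjective (((QuotientGroup.mk' Z).comp (Subgroup.subtype _)).codRestrict _ hm)
        ?_ h
      rintro ⟨y, hy⟩
      obtain ⟨g, rfl⟩ := QuotientGroup.mk'_surjective Z y
      have hg : g ∈ Subgroup.normalizer
          (((Kb.comap (QuotientGroup.mk' (W S))).map ι : Subgroup G) : Set G) := by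
        rw [hnorm, Subgroup.mem_comap]; exact hy
      exact ⟨⟨g, hg⟩, rfl⟩
    exact npc_of_central_quotient Z hZc hZp (hKb (G ⧸ Z) ιb hSylb hNb)
  · -- `C_G(W(S))` is a proper normal subgroup containing `S`
    have hlt : Nat.card ↥C < Nat.card G := by
      refine lt_of_le_of_ne (Subgroup.card_le_card_group _) ?_
      intro h
      exact hCtop (Subgroup.eq_top_of_card_eq _ h)
    have hC : Npc p ↥C := by
      apply IH ↥C (ι.codRestrict C hmem) hlt (hι.codRestrict C hmem)
      apply npc_normalizer_of_map_subtype C _ _ ?_ h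
      rw [Subgroup.map_map]; rfl
    have hQC : ι.range ≤ C := by
      rintro _ ⟨s, rfl⟩; exact hmem s
    have hidx : ¬ p ∣ (ι.range.subgroupOf C).index := by
      intro hd
      exact hι.2 (hd.trans (Subgroup.relIndex_dvd_index_of_le hQC))
    exact npc_of_normal_frattini C ι.range hQC hP hidx hC
      (Npc.of_le (normalizer_range_le_normalizer_map ι hι.1 _) h)

/-- **Main construction.** -/
theorem exists_selfCent_decides {W : ∀ (Q : Type u) [Group Q], Subgroup Q}
    (hW : IsCharPFunctor.{u} p W)
    (hab : ∀ (Q : Type u) [Group Q] [Finite Q], IsPGroup p Q →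
      ∀ a ∈ W Q, ∀ b ∈ W Q, a * b = b * a)
    (hGT : ∀ (G : Type u) [Group G] [Finite G] (P : Sylow p G),
      Npc p ↥(Subgroup.normalizer (inducedFunctor W (P : Subgroup G) : Set G)) → Npc p G) :
    ∀ n : ℕ, ∀ (S : Type u) [Group S] [Finite S], IsPGroup p S → Nat.card S = n →
      ∃ K : Subgroup S, K.Characteristic ∧ Subgroup.centralizer (K : Set S) ≤ K ∧
        Decides p S K := by
  intro n
  induction n using Nat.strong_induction_on with
  | _ n ih =>
    intro S _ _ hS hn
    by_cases htriv : Subsingleton S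
    · refine ⟨⊤, inferInstance, le_top, ?_⟩
      intro G _ _ ι hι _
      have hr : ι.range = ⊥ := by
        rw [eq_bot_iff]
        rintro _ ⟨s, rfl⟩
        rw [Subsingleton.elim s 1, map_one]
        exact Subgroup.mem_bot.mpr rfl
      have h2 := hι.2
      rw [hr, Subgroup.index_bot] at h2
      refine ⟨⊤, inferInstance, ?_, 0, by rw [Subgroup.index_top, pow_zero]⟩
      rw [Subgroup.card_top]
      exact ((Nat.Prime.coprime_iff_not_dvd Fact.out).mpr h2).symm
    · haveI : Nontrivial S := not_subsingleton_iff_nontrivial.mp htriv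
      haveI hWc : (W S).Characteristic := char_of_functor hW hS
      have hWne : W S ≠ ⊥ := hW.1 S hS inferInstance
      by_cases hcen : Subgroup.centralizer ((W S : Subgroup S) : Set S) = ⊤
      · -- Case B
        have hcen' : W S ≤ Subgroup.center S := by
          intro w hw
          rw [Subgroup.mem_center_iff]
          intro g
          have hg : g ∈ Subgroup.centralizer ((W S : Subgroup S) : Set S) := by
            rw [hcen]; exact Subgroup.mem_top g
          exact (Subgroup.mem_centralizer_iff.mp hg w hw).symm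
        have hcard : Nat.card (S ⧸ W S) < n := by
          rw [← hn, ← Subgroup.index_eq_card, ← (W S).card_mul_index]
          have h1 : 1 < Nat.card (W S) := (Subgroup.one_lt_card_iff_ne_bot (W S)).mpr hWne
          have h2 : 0 < (W S).index := Nat.pos_of_ne_zero Subgroup.index_ne_zero_of_finite
          nlinarith
        obtain ⟨Kb, hKbc, hKbcen, hKbd⟩ := ih _ hcard (S ⧸ W S) (hS.to_quotient (W S)) rfl
        haveI := hKbc
        refine ⟨Kb.comap (QuotientGroup.mk' (W S)), characteristic_comap_mk' (W S) Kb, ?_,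
          decides_caseB hW hGT hS hcen' Kb hKbd⟩
        intro x hx
        rw [Subgroup.mem_comap]
        apply hKbcen
        rw [Subgroup.mem_centralizer_iff]
        intro y hy
        obtain ⟨k, rfl⟩ := QuotientGroup.mk'_surjective (W S) y
        have hk : k ∈ Kb.comap (QuotientGroup.mk' (W S)) := hy
        have h1 := Subgroup.mem_centralizer_iff.mp hx k hk
        rw [← map_mul, ← map_mul, h1]
      · -- Case A
        have hcard : Nat.card ↥(Subgroup.centralizer ((W S : Subgroup S) : Set S)) < n := by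
          rw [← hn]
          refine lt_of_le_of_ne (Subgroup.card_le_card_group _) ?_
          intro h
          exact hcen (Subgroup.eq_top_of_card_eq _ h)
        obtain ⟨K1, hK1c, hK1cen, hK1d⟩ := ih _ hcard
          ↥(Subgroup.centralizer ((W S : Subgroup S) : Set S)) (hS.to_subgroup _) rfl
        haveI := hK1c
        refine ⟨K1.map (Subgroup.centralizer ((W S : Subgroup S) : Set S)).subtype,
          characteristic_map_subtype _ K1, ?_, decides_caseA hW hGT hS K1 hK1d⟩
        have hWS1 : W S ≤ Subgroup.centralizer ((W S : Subgroup S) : Set S) := by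
          intro w hw
          rw [Subgroup.mem_centralizer_iff]
          intro v hv
          exact hab S hS v hv w hw
        have hWK : ∀ w (hw : w ∈ W S),
            (⟨w, hWS1 hw⟩ : ↥(Subgroup.centralizer ((W S : Subgroup S) : Set S))) ∈ K1 := by
          intro w hw
          apply hK1cen
          rw [Subgroup.mem_centralizer_iff]
          intro y _
          apply Subtype.ext
          exact (Subgroup.mem_centralizer_iff.mp y.2 w hw).symm
        intro x hx
        have hxS1 : x ∈ Subgroup.centralizer ((W S : Subgroup S) : Set S) := by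
          rw [Subgroup.mem_centralizer_iff]
          intro w hw
          exact Subgroup.mem_centralizer_iff.mp hx w ⟨⟨w, hWS1 hw⟩, hWK w hw, rfl⟩
        refine ⟨⟨x, hxS1⟩, ?_, rfl⟩
        apply hK1cen
        rw [Subgroup.mem_centralizer_iff]
        intro y hy
        apply Subtype.ext
        exact Subgroup.mem_centralizer_iff.mp hx (y : S) ⟨y, hy, rfl⟩

end main

end Cfsg.Agent.Lib.Helper26
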