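import Mathlib
import Cfsg.Agent.Lib.Helper93.Sl3Defs

/-!
# S2287 piece NACT (for helper93): `BNData` implies `NAct`
-/

set_option autoImplicit false

namespace Cfsg.Agent.Lib.Helper93.Sl3

variable {P : Type*} [Group P] {q : ℕ} {U T : Subgroup P} {t c : P}

theorem h26_conj_comm (n v w : P) :
    n * v * n⁻¹ * (n * w * n⁻¹) * (n * v * n⁻¹)⁻¹ * (n * w * n⁻¹)⁻¹ =
      n * (v * w * v⁻¹ * w⁻¹) * n⁻¹ := by
  group

theorem h26_conj_mul (n x y : P) : n * x * n⁻¹ * (n * y * n⁻¹) = n * (x * y) * n⁻¹ := by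
  group

/-- NACTA -/
theorem nAct (D : BNData q U T t c) : NAct U T t c := by
  have hc3 := D.c3
  have ct1 : c * t⁻¹ = t * c⁻¹ := by
    have h : c * t⁻¹ * (c * t⁻¹) = 1 := by rw [← sq]; exact D.ct
    have h2 : c * t⁻¹ = (c * t⁻¹)⁻¹ := eq_inv_of_mul_eq_one_left h
    rw [mul_inv_rev, inv_inv] at h2
    exact h2
  have ct2 : c⁻¹ * t = t⁻¹ * c := by
    have h : t⁻¹ * c = c⁻¹ * (c * t⁻¹) * c := by group
    rw [h, ct1]
    group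
  have ct3 : c * t * c = t * (c⁻¹ * t ^ 2 * c) := by
    have h : c = t * c⁻¹ * t := by
      have h1 : c = (c * t⁻¹) * t := by group
      rw [ct1] at h1
      exact h1
    calc c * t * c = (t * c⁻¹ * t) * t * c := by rw [← h]
      _ = t * (c⁻¹ * t ^ 2 * c) := by rw [pow_two]; simp only [mul_assoc]
  have hc : c⁻¹ = c * c := by
    have h : c * c * c = 1 := by rw [← hc3, pow_succ, pow_two]
    exact inv_eq_of_mul_eq_one_left h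
  have hcc : c⁻¹ * c⁻¹ = c := by rw [← mul_inv_rev, ← hc, inv_inv]
  have t2inv : (t ^ 2)⁻¹ ∈ T := T.inv_mem D.t2
  have Ttinv : ∀ τ ∈ T, t⁻¹ * τ * t ∈ T := by
    intro τ hτ
    have h : t⁻¹ * τ * t = (t ^ 2)⁻¹ * (t * τ * t⁻¹) * t ^ 2 := by group
    rw [h]
    exact T.mul_mem (T.mul_mem t2inv (D.Tt τ hτ)) D.t2
  have Tcinv : ∀ τ ∈ T, c⁻¹ * τ * c ∈ T := by
    intro τ hτ
    have h : c * (c * τ * c⁻¹) * c⁻¹ = c⁻¹ * τ * c := by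
      have e : c * (c * τ * c⁻¹) * c⁻¹ = (c * c) * τ * (c * c)⁻¹ := by group
      rw [e, ← hc, inv_inv]
    rw [← h]
    exact D.Tc _ (D.Tc τ hτ)
  have cjT : ∀ τ ∈ T, cj τ U = U := by
    intro τ hτ
    apply le_antisymm
    · intro y hy
      obtain ⟨v, hv, rfl⟩ := mem_cj.1 hy
      exact D.TU τ hτ v hv
    · intro v hv
      refine mem_cj.2 ⟨τ⁻¹ * v * τ, ?_, by group⟩
      have h := D.TU τ⁻¹ (T.inv_mem hτ) v hv
      rwa [inv_inv] at h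
  have TV : ∀ τ ∈ T, cj τ (cj c U) = cj c U := by
    intro τ hτ
    have e : τ * c = c * (c⁻¹ * τ * c) := by group
    rw [← cj_mul, e, cj_mul, cjT _ (Tcinv τ hτ)]
  have TZ : ∀ τ ∈ T, cj τ (cj (t * c) U) = cj (t * c) U := by
    intro τ hτ
    have e : τ * (t * c) = (t * c) * (c⁻¹ * (t⁻¹ * τ * t) * c) := by group
    rw [← cj_mul, e, cj_mul, cjT _ (Tcinv _ (Ttinv τ hτ))]
  have hτ0 : c⁻¹ * t ^ 2 * c ∈ T := Tcinv _ D.t2
  have tZ : cj t (cj (t * c) U) = cj c U := by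
    have e : t * (t * c) = c * (c⁻¹ * t ^ 2 * c) := by rw [pow_two]; group
    rw [← cj_mul, e, cj_mul, cjT _ hτ0]
  have tinvV : cj t⁻¹ (cj c U) = cj (t * c) U := by
    have e : t⁻¹ * c = (t * c) * (c⁻¹ * (t ^ 2)⁻¹ * c) := by group
    rw [← cj_mul, e, cj_mul, cjT _ (Tcinv _ t2inv)]
  have cZ : cj c (cj (t * c) U) = cj t U := by
    have e : c * (t * c) = t * (c⁻¹ * t ^ 2 * c) := by rw [← mul_assoc, ct3]
    rw [← cj_mul, e, cj_mul, cjT _ hτ0]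
  have cinvU21 : cj c⁻¹ (cj t U) = cj (t * c) U := by
    rw [← cj_mul, ct2, cj_mul, tinvV]
  have hTci : ∀ τ ∈ T, cj τ (cj c⁻¹ U) = cj c⁻¹ U := by
    intro τ hτ
    have e : τ * c⁻¹ = c⁻¹ * (c * τ * c⁻¹) := by group
    rw [← cj_mul, e, cj_mul, cjT _ (D.Tc τ hτ)]
  have cinvZ : cj c⁻¹ (cj (t * c) U) = cj (c * t) U := by
    have e1 : c⁻¹ * (t * c) = (t * c⁻¹) * (c * (t ^ 2)⁻¹ * c⁻¹) := by
      calc c⁻¹ * (t * c) = (c⁻¹ * t) * c := by group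
        _ = t⁻¹ * c * c := by rw [ct2]
        _ = t⁻¹ * (c * c) := by group
        _ = t⁻¹ * c⁻¹ := by rw [← hc]
        _ = (t * c⁻¹) * (c * (t ^ 2)⁻¹ * c⁻¹) := by group
    have e2 : c * t = t * (c⁻¹ * t ^ 2 * c) * c⁻¹ := by
      rw [← ct3]
      group
    have h1 : cj (c⁻¹ * (t * c)) U = cj (t * c⁻¹) U := by
      rw [e1, cj_mul, cjT _ (D.Tc _ t2inv)]
    have h2 : cj (c * t) U = cj (t * c⁻¹) U := by
      rw [e2, cj_mul (t * (c⁻¹ * t ^ 2 * c)) c⁻¹, cj_mul t, hTci _ hτ0, ← cj_mul]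
    rw [← cj_mul, h1, h2]
  have rank1'' : ∀ v ∈ U, v ≠ 1 → ∃ w ∈ U, ∃ τ ∈ T, ∃ w' ∈ U,
      v = t * w * t⁻¹ * τ * t * (t * w' * t⁻¹) := by
    intro v hv hv1
    have hw0 : (t ^ 2)⁻¹ * v * t ^ 2 ∈ U := by
      have h := D.TU _ t2inv v hv
      rwa [inv_inv] at h
    have hw01 : (t ^ 2)⁻¹ * v * t ^ 2 ≠ 1 := by
      intro h
      apply hv1
      have e : v = t ^ 2 * ((t ^ 2)⁻¹ * v * t ^ 2) * (t ^ 2)⁻¹ := by group
      rw [e, h]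
      group
    obtain ⟨v₁, hv₁, τ, hτ, v', hv', e⟩ := D.rank1' _ hw0 hw01
    refine ⟨v₁, hv₁, t * τ * t⁻¹, D.Tt τ hτ, v', hv', ?_⟩
    calc v = t * (t * ((t ^ 2)⁻¹ * v * t ^ 2) * t⁻¹) * t⁻¹ := by group
      _ = t * (v₁ * τ * t * v') * t⁻¹ := by rw [e]
      _ = t * v₁ * t⁻¹ * (t * τ * t⁻¹) * t * (t * v' * t⁻¹) := by group
  -- conjugation by `(t * c)⁻¹`
  have htinv : cj t⁻¹ U = cj t U := by
    have e : t⁻¹ = t * (t ^ 2)⁻¹ := by group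
    rw [e, cj_mul, cjT _ t2inv]
  have ha : cj (t * c)⁻¹ (cj (t * c) U) = U := cj_inv_cj _ _
  have hn : (t * c)⁻¹ = c * t * c⁻¹ := by
    have h : t⁻¹ = c⁻¹ * t * c⁻¹ := by
      have h1 : t⁻¹ = (t⁻¹ * c) * c⁻¹ := by group
      rw [← ct2] at h1
      exact h1
    rw [mul_inv_rev, h, ← mul_assoc, ← mul_assoc, hcc]
  have hb : cj (t * c)⁻¹ (cj c U) = cj (c * t) U := by
    have e : c * t * c⁻¹ * c = c * t := by group
    rw [← cj_mul, hn, e]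
  have hcU : cj (t * c)⁻¹ U = cj (t * c) U := by
    rw [mul_inv_rev, cj_mul, htinv, cinvU21]
  have st' : ∀ z ∈ cj (t * c) U, ∀ w ∈ cj (c * t) U, z * w * z⁻¹ * w⁻¹ ∈ U := by
    intro z hz w hw
    rw [← hcU] at hz
    rw [← hb] at hw
    obtain ⟨v, hv, rfl⟩ := mem_cj.1 hz
    obtain ⟨w₀, hw₀, rfl⟩ := mem_cj.1 hw
    have h := D.st v hv w₀ hw₀
    have h2 := conj_mem_cj (n := (t * c)⁻¹) h
    rw [ha] at h2
    rw [h26_conj_comm]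
    exact h2
  have comm3 : ∀ v ∈ U, ∀ w ∈ cj (c * t) U, Commute v w := by
    intro v hv w hw
    have hv' : v ∈ cj (t * c)⁻¹ (cj (t * c) U) := by rw [ha]; exact hv
    rw [← hb] at hw
    obtain ⟨z₀, hz₀, rfl⟩ := mem_cj.1 hv'
    obtain ⟨w₀, hw₀, rfl⟩ := mem_cj.1 hw
    have h := D.comm2 w₀ hw₀ z₀ hz₀
    show (t * c)⁻¹ * z₀ * (t * c)⁻¹⁻¹ * ((t * c)⁻¹ * w₀ * (t * c)⁻¹⁻¹) =
      (t * c)⁻¹ * w₀ * (t * c)⁻¹⁻¹ * ((t * c)⁻¹ * z₀ * (t * c)⁻¹⁻¹)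
    rw [h26_conj_mul, h26_conj_mul, h.eq]
  exact
    { ct1 := ct1
      ct2 := ct2
      ct3 := ct3
      Ttinv := Ttinv
      Tcinv := Tcinv
      TV := TV
      TZ := TZ
      tZ := tZ
      tinvV := tinvV
      cZ := cZ
      cinvU21 := cinvU21
      cinvZ := cinvZ
      rank1'' := rank1''
      st' := st'
      comm3 := comm3 }

end Cfsg.Agent.Lib.Helper93.Sl3
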