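import Mathlib
import Cfsg.Agent.Lib.Helper49.Sp4Base

/-! S2460 piece CONJY: an upper block-triangular element of `Sp4` with Levi part conjugate to a
good `A0` is conjugate to `sMat A0`. -/

set_option autoImplicit false

namespace Cfsg.Agent.Lib.Helper26.Sp4T

open Matrix Cfsg.Agent.Lib.Helper49.Sp4T

variable {F : Type*} [Field F]

/-- the symmetric `2 × 2` matrices -/
def h26_symSub (F : Type*) [Field F] : Submodule F (M2 F) where
  carrier := {W | Wᵀ = W}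
  add_mem' := by
    intro a b ha hb
    simp only [Set.mem_ofPred_eq] at *
    rw [Matrix.transpose_add, ha, hb]
  zero_mem' := Matrix.transpose_zero
  smul_mem' := by
    intro c a ha
    simp only [Set.mem_ofPred_eq] at *
    rw [Matrix.transpose_smul, ha]

/-- solving `A0ᵀ W A0 - W = T` in symmetric matrices -/
theorem h26_exists_sym (A0 : M2 F) (h : ∀ W : M2 F, Wᵀ = W → A0ᵀ * W * A0 = W → W = 0)
    (T : M2 F) (hT : Tᵀ = T) : ∃ W : M2 F, Wᵀ = W ∧ A0ᵀ * W * A0 - W = T := by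
  let Φ₀ : M2 F →ₗ[F] M2 F :=
    { toFun := fun W => A0ᵀ * W * A0 - W
      map_add' := by
        intro x y
        simp only [Matrix.mul_add, Matrix.add_mul]
        abel
      map_smul' := by
        intro c x
        simp only [Matrix.mul_smul, Matrix.smul_mul, RingHom.id_apply, smul_sub] }
  have hmem : ∀ W ∈ h26_symSub F, Φ₀ W ∈ h26_symSub F := by
    intro W hW
    have hW' : Wᵀ = W := hW
    show (A0ᵀ * W * A0 - W)ᵀ = A0ᵀ * W * A0 - W
    rw [Matrix.transpose_sub, Matrix.transpose_mul, Matrix.transpose_mul,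
      Matrix.transpose_transpose, hW', Matrix.mul_assoc]
  have hinj : Function.Injective (Φ₀.restrict hmem) := by
    rw [← LinearMap.ker_eq_bot, LinearMap.ker_eq_bot']
    intro x hx
    have h1 : A0ᵀ * (x : M2 F) * A0 - (x : M2 F) = 0 := congrArg Subtype.val hx
    exact Subtype.ext (h x x.2 (sub_eq_zero.mp h1))
  have hsurj := LinearMap.injective_iff_surjective.mp hinj
  obtain ⟨W, hW⟩ := hsurj ⟨T, hT⟩
  exact ⟨W, W.2, congrArg Subtype.val hW⟩

/-- PIECE CONJY -/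
theorem conj_upper (A0 : M2 F) (hA : Good A0) (x0 : Sp4 F) (hx0 : (x0 : M4 F) = sMat A0)
    (A B D : M2 F) (hB : IsUnit B.det) (hBA : B * A = A0 * B)
    (y : Sp4 F) (hy : (y : M4 F) = Matrix.fromBlocks A⁻¹ D 0 Aᵀ) :
    ∃ u : Sp4 F, y = u * x0 * u⁻¹ := by
  obtain ⟨hA0, hG2, -, B', hB', hB'A⟩ := hA
  have hymem : (y : M4 F) ∈ Matrix.symplecticGroup (Fin 2) F := y.2
  rw [hy, SymplecticGroup.fromBlocks_mem_iff] at hymem
  obtain ⟨-, hy2, hy3⟩ := hymem
  have hAinv : A * A⁻¹ = 1 := by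
    have h1 : (A * A⁻¹)ᵀ = 1 := by
      rw [Matrix.transpose_mul]
      simpa using hy3
    have h2 := congrArg Matrix.transpose h1
    simpa using h2
  have hAu : IsUnit A.det := Matrix.isUnit_det_of_right_inverse hAinv
  have hAinv' : A⁻¹ * A = 1 := Matrix.nonsing_inv_mul A hAu
  have hAD : (A * D)ᵀ = A * D := by
    rw [Matrix.transpose_mul, hy2, Matrix.transpose_transpose]
  have hRu : IsUnit (Bᵀ * B')ᵀ.det := by
    rw [Matrix.det_transpose, Matrix.det_mul, Matrix.det_transpose]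
    exact hB.mul hB'
  obtain ⟨R, hR⟩ : ∃ R : M2 F, R = Bᵀ * B' := ⟨_, rfl⟩
  rw [← hR] at hRu
  obtain ⟨N, hN⟩ : ∃ N : M2 F, N = (Rᵀ)⁻¹ := ⟨_, rfl⟩
  have hRN : Rᵀ * N = 1 := by rw [hN]; exact Matrix.mul_nonsing_inv _ hRu
  have hNR : N * Rᵀ = 1 := by rw [hN]; exact Matrix.nonsing_inv_mul _ hRu
  have hNtR : Nᵀ * R = 1 := by
    have h := congrArg Matrix.transpose hRN
    rwa [Matrix.transpose_mul, Matrix.transpose_transpose, Matrix.transpose_one] at h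
  have h3 : Aᵀ * R = R * A0 := by
    calc Aᵀ * R = (B * A)ᵀ * B' := by rw [hR, Matrix.transpose_mul, Matrix.mul_assoc]
      _ = (A0 * B)ᵀ * B' := by rw [hBA]
      _ = Bᵀ * (A0ᵀ * B') := by rw [Matrix.transpose_mul, Matrix.mul_assoc]
      _ = Bᵀ * (B' * A0) := by rw [hB'A]
      _ = R * A0 := by rw [hR, Matrix.mul_assoc]
  have h3t : Rᵀ * A = A0ᵀ * Rᵀ := by
    have h := congrArg Matrix.transpose h3
    rwa [Matrix.transpose_mul, Matrix.transpose_mul, Matrix.transpose_transpose] at h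
  have hAN : A * N = N * A0ᵀ := by
    calc A * N = (N * Rᵀ) * A * N := by rw [hNR, Matrix.one_mul]
      _ = N * (Rᵀ * A) * N := by simp only [Matrix.mul_assoc]
      _ = N * (A0ᵀ * Rᵀ) * N := by rw [h3t]
      _ = N * A0ᵀ * (Rᵀ * N) := by simp only [Matrix.mul_assoc]
      _ = N * A0ᵀ := by rw [hRN, Matrix.mul_one]
  have hA0t : IsUnit A0ᵀ.det := by
    rw [Matrix.det_transpose]
    exact hA0
  have hA0i : A0ᵀ * (A0ᵀ)⁻¹ = 1 := Matrix.mul_nonsing_inv _ hA0t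
  have hA0i' : (A0ᵀ)⁻¹ * A0ᵀ = 1 := Matrix.nonsing_inv_mul _ hA0t
  have h2 : A⁻¹ * N = N * (A0ᵀ)⁻¹ := by
    calc A⁻¹ * N = A⁻¹ * N * (A0ᵀ * (A0ᵀ)⁻¹) := by rw [hA0i, Matrix.mul_one]
      _ = A⁻¹ * (N * A0ᵀ) * (A0ᵀ)⁻¹ := by simp only [Matrix.mul_assoc]
      _ = A⁻¹ * (A * N) * (A0ᵀ)⁻¹ := by rw [hAN]
      _ = (A⁻¹ * A) * N * (A0ᵀ)⁻¹ := by simp only [Matrix.mul_assoc]
      _ = N * (A0ᵀ)⁻¹ := by rw [hAinv', Matrix.one_mul]
  have hT : (Rᵀ * (A * D) * R)ᵀ = Rᵀ * (A * D) * R := by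
    rw [Matrix.transpose_mul, Matrix.transpose_mul, Matrix.transpose_transpose, hAD]
    simp only [Matrix.mul_assoc]
  obtain ⟨W, hWs, hW⟩ := h26_exists_sym A0 hG2 _ hT
  have e1 : A0ᵀ * W * A0 = W + Rᵀ * (A * D) * R := by
    rw [← hW]
    abel
  have h1 : A⁻¹ * (N * W) + D * R = N * W * A0 := by
    have e2 : D * R = A⁻¹ * N * (Rᵀ * (A * D) * R) := by
      calc D * R = (A⁻¹ * A) * D * R := by rw [hAinv', Matrix.one_mul]
        _ = A⁻¹ * (N * Rᵀ) * (A * D) * R := by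
          rw [hNR, Matrix.mul_one]
          simp only [Matrix.mul_assoc]
        _ = A⁻¹ * N * (Rᵀ * (A * D) * R) := by simp only [Matrix.mul_assoc]
    calc A⁻¹ * (N * W) + D * R
        = A⁻¹ * N * W + A⁻¹ * N * (Rᵀ * (A * D) * R) := by rw [e2, Matrix.mul_assoc A⁻¹ N W]
      _ = A⁻¹ * N * (W + Rᵀ * (A * D) * R) := by rw [Matrix.mul_add]
      _ = N * (A0ᵀ)⁻¹ * (A0ᵀ * W * A0) := by rw [e1, h2]
      _ = N * ((A0ᵀ)⁻¹ * A0ᵀ) * W * A0 := by simp only [Matrix.mul_assoc]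
      _ = N * W * A0 := by rw [hA0i', Matrix.mul_one]
  have humem : Matrix.fromBlocks (N * W) (-N) R 0 ∈ Matrix.symplecticGroup (Fin 2) F := by
    rw [SymplecticGroup.fromBlocks_mem_iff]
    refine ⟨?_, ?_, ?_⟩
    · rw [Matrix.transpose_mul, hWs, Matrix.mul_assoc, hNtR, Matrix.mul_one, ← Matrix.mul_assoc,
        hRN, Matrix.one_mul]
    · simp
    · rw [Matrix.mul_zero, zero_sub, Matrix.mul_neg, neg_neg, hRN]
  refine ⟨⟨_, humem⟩, ?_⟩
  rw [eq_mul_inv_iff_mul_eq]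
  apply Subtype.ext
  show (y : M4 F) * Matrix.fromBlocks (N * W) (-N) R 0
    = Matrix.fromBlocks (N * W) (-N) R 0 * (x0 : M4 F)
  rw [hy, hx0, sMat, Matrix.fromBlocks_multiply, Matrix.fromBlocks_multiply,
    Matrix.fromBlocks_inj]
  refine ⟨?_, ?_, ?_, ?_⟩
  · rw [Matrix.mul_zero, add_zero]
    exact h1
  · rw [Matrix.mul_zero, Matrix.mul_zero, add_zero, zero_add, Matrix.mul_neg, Matrix.neg_mul,
      Matrix.transpose_nonsing_inv, h2]
  · rw [Matrix.zero_mul, Matrix.zero_mul, zero_add, add_zero]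
    exact h3
  · simp

end Cfsg.Agent.Lib.Helper26.Sp4T
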