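import Mathlib
import Cfsg.Agent.Lib.Helper49.Sp4Base

/-! S2460 piece KFRAME: a symplectic frame of the standard form gives a symplectic matrix. -/

set_option autoImplicit false

namespace Cfsg.Agent.Lib.Helper26.Sp4T

open Matrix Cfsg.Agent.Lib.Helper49.Sp4T

variable {F : Type*} [Field F]

/-- PIECE KFRAME -/
theorem frame_matrix (v1 v2 w1 w2 : V4 F) (hf : Frame (Om F) v1 v2 w1 w2) :
    ∃ k : Sp4 F, (k : M4 F) *ᵥ Pi.single (Sum.inl 0) 1 = v1 ∧
      (k : M4 F) *ᵥ Pi.single (Sum.inl 1) 1 = v2 ∧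
      (k : M4 F) *ᵥ Pi.single (Sum.inr 0) 1 = w1 ∧
      (k : M4 F) *ᵥ Pi.single (Sum.inr 1) 1 = w2 := by
  obtain ⟨h12, hw12, h11, h22, hw1v2, hw2v1⟩ := hf
  have hω : Symp (Om F) := symp_Om
  have hmem : (Matrix.of fun r c => Sum.elim ![v1, v2] ![w1, w2] c r : M4 F)
      ∈ Matrix.symplecticGroup (Fin 2) F := by
    rw [SymplecticGroup.mem_iff']
    ext a b
    rw [Matrix.mul_mul_apply]
    refine (Om_apply (Sum.elim ![v1, v2] ![w1, w2] a) (Sum.elim ![v1, v2] ![w1, w2] b)).symm.trans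
      ?_
    have s21 : Om F v2 v1 = 0 := by rw [hω.swap, h12, neg_zero]
    have s1w1 : Om F v1 w1 = -1 := by rw [hω.swap, h11]
    have s1w2 : Om F v1 w2 = 0 := by rw [hω.swap, hw2v1, neg_zero]
    have s2w1 : Om F v2 w1 = 0 := by rw [hω.swap, hw1v2, neg_zero]
    have s2w2 : Om F v2 w2 = -1 := by rw [hω.swap, h22]
    have sw21 : Om F w2 w1 = 0 := by rw [hω.swap, hw12, neg_zero]
    rcases a with a | a <;> rcases b with b | b <;> fin_cases a <;> fin_cases b <;>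
      simp [Matrix.J, hω.alt, h12, hw12, h11, h22, hw1v2, hw2v1, s21, s1w1, s1w2, s2w1, s2w2,
        sw21]
  refine ⟨⟨_, hmem⟩, ?_, ?_, ?_, ?_⟩ <;>
  · rw [Matrix.mulVec_single_one]
    rfl

end Cfsg.Agent.Lib.Helper26.Sp4T
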