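import Mathlib
import Cfsg.Agent.Lib.Helper93.Sp4Defs

set_option autoImplicit false

/-! S2293 piece SP4-P2A: closure step `Q < P`, family 2, `s ∈ Ua ∪ Ub ∪ T`. -/

namespace Cfsg.Agent.Lib.Helper93.Sp4

open Cfsg.Agent.Lib.Helper93.Sl3 (cj)

variable {P : Type*} [Group P] {q : ℕ} {Ua Ub T : Subgroup P} {ta tb : P}

theorem h26_Ua_le_Qsub : Ua ≤ Qsub Ua Ub T ta tb := fun _ hx =>
  Subgroup.subset_closure (Or.inl (Or.inl (Or.inl (Or.inl (Or.inl hx)))))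

theorem h26_Ub_le_Qsub : Ub ≤ Qsub Ua Ub T ta tb := fun _ hx =>
  Subgroup.subset_closure (Or.inl (Or.inl (Or.inl (Or.inl (Or.inr hx)))))

theorem h26_Uab_le_Qsub : cj tb Ua ≤ Qsub Ua Ub T ta tb := fun _ hx =>
  Subgroup.subset_closure (Or.inl (Or.inl (Or.inl (Or.inr hx))))

theorem h26_Uaab_le_Qsub : cj ta Ub ≤ Qsub Ua Ub T ta tb := fun _ hx =>
  Subgroup.subset_closure (Or.inl (Or.inl (Or.inr hx)))

theorem h26_T_le_Qsub : T ≤ Qsub Ua Ub T ta tb := fun _ hx =>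
  Subgroup.subset_closure (Or.inl (Or.inr hx))

theorem h26_ta_mem_Qsub : ta ∈ Qsub Ua Ub T ta tb :=
  Subgroup.subset_closure (Or.inr rfl)

/-- P2A -/
theorem c2_p_step2a (D : C2Data q Ua Ub T ta tb) (N : C2Act Ua Ub T ta tb) :
    ∀ y ∈ YP2 Ua Ub ta tb, ∀ s ∈ ((Ua : Set P) ∪ (Ub : Set P) ∪ (T : Set P)),
      ∃ a ∈ Qsub Ua Ub T ta tb, ∃ y' ∈ YP2 Ua Ub ta tb, y * s = a * y' := by
  rintro y ⟨v, hv, z2, hz2, rfl⟩ s hs
  rcases hs with (hs | hs) | hs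
  · -- s ∈ Ua
    refine ⟨1, one_mem _, tb * ta * (v * s) * z2, ⟨v * s, mul_mem hv hs, z2, hz2, rfl⟩, ?_⟩
    have hc : z2 * s = s * z2 := ((D.c3a s hs z2 hz2).eq).symm
    rw [one_mul]
    calc tb * ta * v * z2 * s = tb * ta * v * (z2 * s) := by group
      _ = tb * ta * v * (s * z2) := by rw [hc]
      _ = tb * ta * (v * s) * z2 := by group
  · -- s = x ∈ Ub
    obtain ⟨z1, hz1, z2', hz2', hc1⟩ := D.c1 v hv s hs
    have h1 : z2 * s = s * z2 := ((D.c3c s hs z2 hz2).eq).symm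
    have h2 : s * z1 = z1 * s := (D.c3b s hs z1 hz1).eq
    have h3 : s * z2' = z2' * s := (D.c3c s hs z2' hz2').eq
    have h4 : v * z2' = z2' * v := (D.c3a v hv z2' hz2').eq
    have hvx : v * s = s * z1 * z2' * v := by
      calc v * s = (v * s * v⁻¹ * s⁻¹) * s * v := by group
        _ = z1 * z2' * s * v := by rw [hc1]
        _ = z1 * (z2' * s) * v := by group
        _ = z1 * (s * z2') * v := by rw [h3]
        _ = (z1 * s) * z2' * v := by group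
        _ = (s * z1) * z2' * v := by rw [h2]
        _ = s * z1 * z2' * v := by group
    -- factor 1 : tb ta s ta⁻¹ tb⁻¹ ∈ Uaab
    have hf1 : tb * (ta * s * ta⁻¹) * tb⁻¹ ∈ cj ta Ub := by
      have : tb * (ta * s * ta⁻¹) * tb⁻¹ ∈ cj tb (cj ta Ub) :=
        Sl3.conj_mem_cj (Sl3.conj_mem_cj hs)
      rwa [D.n2] at this
    -- factor 2 : tb ta z1 ta⁻¹ tb⁻¹ ∈ Ua
    have hf2 : tb * (ta * z1 * ta⁻¹) * tb⁻¹ ∈ Ua := by
      have h : ta * z1 * ta⁻¹ ∈ cj ta (cj tb Ua) := Sl3.conj_mem_cj hz1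
      rw [D.n1] at h
      have : tb * (ta * z1 * ta⁻¹) * tb⁻¹ ∈ cj tb (cj tb Ua) := Sl3.conj_mem_cj h
      rwa [N.tb_ab] at this
    refine ⟨(tb * (ta * s * ta⁻¹) * tb⁻¹) * (tb * (ta * z1 * ta⁻¹) * tb⁻¹),
      mul_mem (h26_Uaab_le_Qsub hf1) (h26_Ua_le_Qsub hf2),
      tb * ta * v * (z2' * z2), ⟨v, hv, z2' * z2, mul_mem hz2' hz2, rfl⟩, ?_⟩
    calc tb * ta * v * z2 * s = tb * ta * v * (z2 * s) := by group
      _ = tb * ta * v * (s * z2) := by rw [h1]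
      _ = tb * ta * (v * s) * z2 := by group
      _ = tb * ta * (s * z1 * z2' * v) * z2 := by rw [hvx]
      _ = tb * ta * s * z1 * (z2' * v) * z2 := by group
      _ = tb * ta * s * z1 * (v * z2') * z2 := by rw [h4]
      _ = (tb * (ta * s * ta⁻¹) * tb⁻¹) * (tb * (ta * z1 * ta⁻¹) * tb⁻¹) *
            (tb * ta * v * (z2' * z2)) := by group
  · -- s = τ ∈ T
    have hτi : s⁻¹ ∈ T := inv_mem hs
    have hv' : s⁻¹ * v * s ∈ Ua := by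
      have := D.TUa s⁻¹ hτi v hv
      rwa [inv_inv] at this
    have hz' : s⁻¹ * z2 * s ∈ cj ta Ub := by
      have : s⁻¹ * z2 * s⁻¹⁻¹ ∈ cj s⁻¹ (cj ta Ub) := Sl3.conj_mem_cj hz2
      rwa [N.TUaab s⁻¹ hτi, inv_inv] at this
    have ha : tb * (ta * s * ta⁻¹) * tb⁻¹ ∈ T := D.Ttb _ (D.Tta s hs)
    refine ⟨tb * (ta * s * ta⁻¹) * tb⁻¹, h26_T_le_Qsub ha,
      tb * ta * (s⁻¹ * v * s) * (s⁻¹ * z2 * s), ⟨_, hv', _, hz', rfl⟩, ?_⟩
    group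

end Cfsg.Agent.Lib.Helper93.Sp4
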