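import Mathlib
import Cfsg.Agent.Lib.Helper49.Sp4Base
import Cfsg.Agent.Lib.Helper1.Sp4CONJX
import Cfsg.Agent.Lib.Helper60.Sp4GL2
import Cfsg.Agent.Lib.Helper26.Sp4CONJY

/-! S2460 piece TDEC: the involution `diag(-1,1|-1,1)` of `Sp4` is a product of two conjugates
of `sMat (comp s n)`. -/

set_option autoImplicit false

namespace Cfsg.Agent.Lib.Helper26.Sp4T

open Matrix Cfsg.Agent.Lib.Helper49.Sp4T

variable {F : Type*} [Field F]

/-- the matrix `E` -/
def h26_E (F : Type*) [Field F] : M2 F := !![0, 1; -1, 0]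

theorem h26_E_mul_E : h26_E F * h26_E F = -1 := by
  ext i j
  fin_cases i <;> fin_cases j <;> simp [h26_E, Matrix.mul_apply, Fin.sum_univ_two]

theorem h26_E_transpose : (h26_E F)ᵀ = -h26_E F := by
  ext i j
  fin_cases i <;> fin_cases j <;> simp [h26_E]

/-- the element `k1` -/
theorem h26_k1_mem (h2 : (2 : F) ≠ 0) :
    Matrix.fromBlocks (!![2⁻¹, 2⁻¹; 2⁻¹, -2⁻¹] : M2 F) !![0, 1; 0, -1] !![2⁻¹, -2⁻¹; 2⁻¹, 2⁻¹]
      !![1, 0; 1, 0] ∈ Matrix.symplecticGroup (Fin 2) F := by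
  rw [SymplecticGroup.fromBlocks_mem_iff]
  refine ⟨?_, ?_, ?_⟩ <;> ext i j <;> fin_cases i <;> fin_cases j <;>
    simp [Matrix.mul_apply, Fin.sum_univ_two] <;> field_simp <;> ring

theorem h26_k1_T (h2 : (2 : F) ≠ 0) :
    tMat F * Matrix.fromBlocks (!![2⁻¹, 2⁻¹; 2⁻¹, -2⁻¹] : M2 F) !![0, 1; 0, -1]
        !![2⁻¹, -2⁻¹; 2⁻¹, 2⁻¹] !![1, 0; 1, 0]
      = Matrix.fromBlocks (!![2⁻¹, 2⁻¹; 2⁻¹, -2⁻¹] : M2 F) !![0, 1; 0, -1]
          !![2⁻¹, -2⁻¹; 2⁻¹, 2⁻¹] !![1, 0; 1, 0]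
        * Matrix.fromBlocks (-h26_E F) (-2 • h26_E F) (h26_E F) (h26_E F) := by
  rw [tMat, Matrix.fromBlocks_multiply, Matrix.fromBlocks_multiply, Matrix.fromBlocks_inj]
  refine ⟨?_, ?_, ?_, ?_⟩ <;> ext i j <;> fin_cases i <;> fin_cases j <;>
    simp [h26_E, Matrix.mul_apply, Fin.sum_univ_two] <;> field_simp <;> ring

/-- PIECE TDEC -/
theorem tMat_factor (h2 : (2 : F) ≠ 0) (s n : F) (hn0 : n ≠ 0) (hG : Good (comp s n))
    (x0 : Sp4 F) (hx0 : (x0 : M4 F) = sMat (comp s n))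
    (a c : F) (hac : a * a - s * a + c * c + s * c + n = 0)
    (t0 : Sp4 F) (ht0 : (t0 : M4 F) = tMat F) :
    ∃ u v : Sp4 F, t0 = (u * x0 * u⁻¹) * (v * x0 * v⁻¹) := by
  have hn : n = a * s - a * a - c * c - s * c := by linear_combination hac
  obtain ⟨A, hA⟩ : ∃ A : M2 F, A = !![a, -c - s; -c, s - a] := ⟨_, rfl⟩
  obtain ⟨A', hA'⟩ : ∃ A' : M2 F, A' = !![-c, s - a; -a, c + s] := ⟨_, rfl⟩
  obtain ⟨Ai, hAi⟩ : ∃ Ai : M2 F, Ai = n⁻¹ • !![s - a, c + s; c, a] := ⟨_, rfl⟩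
  have hEE := h26_E_mul_E (F := F)
  have hEt := h26_E_transpose (F := F)
  have hadj : A * !![s - a, c + s; c, a] = n • (1 : M2 F) := by
    rw [hA, hn]
    ext i j
    fin_cases i <;> fin_cases j <;> simp [Matrix.mul_apply, Fin.sum_univ_two] <;> ring
  have hAAi : A * Ai = 1 := by
    rw [hAi, Matrix.mul_smul, hadj, smul_smul, inv_mul_cancel₀ hn0, one_smul]
  have hAiA : Ai * A = 1 := mul_eq_one_comm.mp hAAi
  have hAinv : A⁻¹ = Ai := Matrix.inv_eq_right_inv hAAi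
  have hA'E : A' = h26_E F * A := by
    rw [hA, hA']
    ext i j
    fin_cases i <;> fin_cases j <;> simp [h26_E, Matrix.mul_apply, Fin.sum_univ_two]
    ring
  have hA'A'i : A' * (-(Ai * h26_E F)) = 1 := by
    rw [hA'E, Matrix.mul_neg, Matrix.mul_assoc, ← Matrix.mul_assoc A, hAAi, Matrix.one_mul, hEE,
      neg_neg]
  have hA'inv : A'⁻¹ = -(Ai * h26_E F) := Matrix.inv_eq_right_inv hA'A'i
  -- traces, determinants, non-scalarity
  have htr : A.trace = (comp s n).trace := by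
    rw [hA, Cfsg.Agent.Lib.Helper49.Sp4T.comp, Matrix.trace_fin_two, Matrix.trace_fin_two]
    simp
  have hdet : A.det = (comp s n).det := by
    rw [hA, Cfsg.Agent.Lib.Helper49.Sp4T.comp, Matrix.det_fin_two, Matrix.det_fin_two]
    simp
    linear_combination -hac
  have htr' : A'.trace = (comp s n).trace := by
    rw [hA', Cfsg.Agent.Lib.Helper49.Sp4T.comp, Matrix.trace_fin_two, Matrix.trace_fin_two]
    simp
  have hdet' : A'.det = (comp s n).det := by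
    rw [hA', Cfsg.Agent.Lib.Helper49.Sp4T.comp, Matrix.det_fin_two, Matrix.det_fin_two]
    simp
    linear_combination -hac
  have hns : ∀ c' : F, A ≠ c' • (1 : M2 F) := by
    intro c' h
    rw [hA] at h
    have h01 := congrFun (congrFun h 0) 1
    have h10 := congrFun (congrFun h 1) 0
    have h00 := congrFun (congrFun h 0) 0
    have h11 := congrFun (congrFun h 1) 1
    simp at h01 h10 h00 h11
    have hc : c = 0 := h10
    have hs : s = 0 := by linear_combination -h01 - hc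
    have ha : a = 0 := by
      have h5 : (2 : F) * a = 0 := by linear_combination h00 - h11 + hs
      rcases mul_eq_zero.mp h5 with h | h
      · exact absurd h h2
      · exact h
    apply hn0
    rw [hn, ha, hc, hs]
    ring
  have hns' : ∀ c' : F, A' ≠ c' • (1 : M2 F) := by
    intro c' h
    rw [hA'] at h
    have h01 := congrFun (congrFun h 0) 1
    have h10 := congrFun (congrFun h 1) 0
    have h00 := congrFun (congrFun h 0) 0
    have h11 := congrFun (congrFun h 1) 1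
    simp at h01 h10 h00 h11
    have ha : a = 0 := h10
    have hs : s = 0 := by linear_combination h01 + ha
    have hc : c = 0 := by
      have h5 : (2 : F) * c = 0 := by linear_combination h11 - h00 - hs
      rcases mul_eq_zero.mp h5 with h | h
      · exact absurd h h2
      · exact h
    apply hn0
    rw [hn, ha, hc, hs]
    ring
  have hcns : ∀ c' : F, comp s n ≠ c' • (1 : M2 F) := by
    intro c' h
    have h10 := congrFun (congrFun h 1) 0
    simp [Cfsg.Agent.Lib.Helper49.Sp4T.comp] at h10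
  -- the two factors
  have hxmem : Matrix.fromBlocks A 0 (-A) Aiᵀ ∈ Matrix.symplecticGroup (Fin 2) F := by
    rw [SymplecticGroup.fromBlocks_mem_iff]
    refine ⟨?_, ?_, ?_⟩
    · rw [Matrix.mul_neg, Matrix.transpose_neg, Matrix.neg_mul]
    · simp
    · rw [Matrix.mul_zero, sub_zero, ← Matrix.transpose_mul, hAiA, Matrix.transpose_one]
  have hA'Q : A' * (-2 • (Ai * h26_E F)) = 2 • (1 : M2 F) := by
    rw [hA'E, Matrix.mul_smul, Matrix.mul_assoc, ← Matrix.mul_assoc A, hAAi, Matrix.one_mul, hEE]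
    simp
  have hymem : Matrix.fromBlocks (-(Ai * h26_E F)) (-2 • (Ai * h26_E F)) 0 A'ᵀ
      ∈ Matrix.symplecticGroup (Fin 2) F := by
    rw [SymplecticGroup.fromBlocks_mem_iff]
    refine ⟨?_, ?_, ?_⟩
    · simp
    · rw [Matrix.transpose_transpose, ← Matrix.transpose_mul, hA'Q]
      simp
    · rw [Matrix.transpose_zero, Matrix.zero_mul, sub_zero, ← Matrix.transpose_mul, hA'A'i,
        Matrix.transpose_one]
  have hxy : Matrix.fromBlocks A 0 (-A) Aiᵀ
      * Matrix.fromBlocks (-(Ai * h26_E F)) (-2 • (Ai * h26_E F)) 0 A'ᵀ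
      = Matrix.fromBlocks (-h26_E F) (-2 • h26_E F) (h26_E F) (h26_E F) := by
    rw [Matrix.fromBlocks_multiply, Matrix.fromBlocks_inj]
    refine ⟨?_, ?_, ?_, ?_⟩
    · rw [Matrix.zero_mul, add_zero, Matrix.mul_neg, ← Matrix.mul_assoc, hAAi, Matrix.one_mul]
    · rw [Matrix.zero_mul, add_zero, Matrix.mul_smul, ← Matrix.mul_assoc, hAAi, Matrix.one_mul]
    · rw [Matrix.mul_zero, add_zero, Matrix.neg_mul, Matrix.mul_neg, neg_neg, ← Matrix.mul_assoc,
        hAAi, Matrix.one_mul]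
    · rw [← Matrix.transpose_mul, hA'E, Matrix.mul_assoc, hAAi, Matrix.mul_one, hEt,
        Matrix.neg_mul, Matrix.mul_smul, ← Matrix.mul_assoc, hAAi, Matrix.one_mul]
      rw [neg_smul, neg_neg, two_smul]
      abel
  obtain ⟨B, hB, hBA⟩ := Cfsg.Agent.Lib.Helper60.Sp4T.gl2_conj A (comp s n) htr hdet hns hcns
  obtain ⟨u, hu⟩ := Cfsg.Agent.Lib.Helper1.Sp4T.conj_lower (comp s n) hG x0 hx0 A B (-A) hB hBA
    ⟨_, hxmem⟩ (by rw [hAinv])
  obtain ⟨B', hB', hB'A⟩ :=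
    Cfsg.Agent.Lib.Helper60.Sp4T.gl2_conj A' (comp s n) htr' hdet' hns' hcns
  obtain ⟨v, hv⟩ := conj_upper (comp s n) hG x0 hx0 A' B' (-2 • (Ai * h26_E F)) hB' hB'A
    ⟨_, hymem⟩ (by rw [hA'inv])
  have hk : t0 * ⟨_, h26_k1_mem h2⟩ = ⟨_, h26_k1_mem h2⟩ * ((⟨_, hxmem⟩ : Sp4 F) * ⟨_, hymem⟩) := by
    apply Subtype.ext
    show (t0 : M4 F) * _ = _ * (Matrix.fromBlocks A 0 (-A) Aiᵀ
      * Matrix.fromBlocks (-(Ai * h26_E F)) (-2 • (Ai * h26_E F)) 0 A'ᵀ)
    rw [ht0, hxy]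
    exact h26_k1_T h2
  refine ⟨⟨_, h26_k1_mem h2⟩ * u, ⟨_, h26_k1_mem h2⟩ * v, ?_⟩
  have h3 := eq_mul_inv_of_mul_eq hk
  rw [h3, hu, hv]
  group

end Cfsg.Agent.Lib.Helper26.Sp4T
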