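import Cfsg.Agent.Lib.Helper26.NpcBasic
import Cfsg.Agent.Lib.Helper42.Fusion6
import Cfsg.Agent.S0071
import Cfsg.Prelude.Def_TwoFusion

/-!
# A Frobenius-type normal `p`-complement criterion relative to a strongly closed subgroup

If `D` is strongly closed in the Sylow `p`-subgroup `S` of `G` and `N_G(U)` has a normal
`p`-complement for every `U ≤ D` with `C_D(U) ≤ U`, then `G` has a normal `p`-complement
(`strClosed_npc`).  The proof is an Alperin-style induction: for a fully normalized `W ≤ S`, put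
`U = W ∩ D`; either `C_D(U) ≤ U` and `N_G(W) ≤ N_G(U)` has a normal `p`-complement, or the
stabilizer in `N_G(W)` of the chain `1 ≤ U ≤ W` is a normal subgroup of `N_G(W)` which is a
`p`-group modulo `C_G(W)` and whose Sylow subgroup in `S` is not inside `W`; a Frattini argument
then moves `N_G(W)`, modulo `C_G(W)`, into the normalizer of a larger subgroup of `S`.
-/

set_option autoImplicit false

namespace Cfsg.Agent.Lib.Helper26

open Cfsg
open Cfsg.Agent.Lib.Helper42 (cj mem_cj conj_mem_cj cj_cj cj_one cj_mono cj_le_iff card_cj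
  isPGroup_cj cj_eq_self_iff cj_eq_of_mem_normalizer centralizer_cj IsSylIn Fac)

section strclosed

variable {G : Type*} [Group G]

/-- a subgroup all of whose elements conjugate `X` into itself normalizes `X`. -/
theorem le_normalizer_of_forall_conj_mem {H X : Subgroup G}
    (h : ∀ t ∈ H, ∀ x ∈ X, t * x * t⁻¹ ∈ X) : H ≤ Subgroup.normalizer (X : Set G) := by
  intro t ht
  rw [Subgroup.mem_normalizer_iff]
  intro x
  constructor
  · exact h t ht x
  · intro hx
    have h1 := h t⁻¹ (H.inv_mem ht) _ hx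
    have e : t⁻¹ * (t * x * t⁻¹) * t⁻¹⁻¹ = x := by group
    rwa [e] at h1

theorem conj_mem_of_mem_normalizer {W : Subgroup G} {t w : G}
    (ht : t ∈ Subgroup.normalizer (W : Set G)) (hw : w ∈ W) : t * w * t⁻¹ ∈ W :=
  (Subgroup.mem_normalizer_iff.mp ht w).mp hw

theorem conj_inv_mem_of_mem_normalizer {W : Subgroup G} {t w : G}
    (ht : t ∈ Subgroup.normalizer (W : Set G)) (hw : w ∈ W) : t⁻¹ * w * t ∈ W := by
  have h1 := conj_mem_of_mem_normalizer (Subgroup.inv_mem _ ht) hw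
  rwa [inv_inv] at h1

/-- the centralizer of `W` is normalized by the normalizer of `W`, elementwise. -/
theorem conj_mem_centralizer_of_normalizer {W : Subgroup G} {t c : G}
    (ht : t ∈ Subgroup.normalizer (W : Set G)) (hc : c ∈ Subgroup.centralizer (W : Set G)) :
    t * c * t⁻¹ ∈ Subgroup.centralizer (W : Set G) := by
  rw [Subgroup.mem_centralizer_iff]
  intro w hw
  have h1 := Subgroup.mem_centralizer_iff.mp hc _ (conj_inv_mem_of_mem_normalizer ht hw)
  calc w * (t * c * t⁻¹) = t * ((t⁻¹ * w * t) * c) * t⁻¹ := by group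
    _ = t * (c * (t⁻¹ * w * t)) * t⁻¹ := by rw [h1]
    _ = t * c * t⁻¹ * w := by group

/-- the stabilizer in `N_G(W)` of the chain `1 ≤ U ≤ W`: the elements of `N_G(W)` centralizing
`U` and acting trivially on `W` modulo `U`. -/
def chainStab (U W : Subgroup G) : Subgroup G where
  carrier := {x | x ∈ Subgroup.normalizer (W : Set G) ∧ x ∈ Subgroup.centralizer (U : Set G) ∧
    ∀ w ∈ W, x * w * x⁻¹ * w⁻¹ ∈ U}
  mul_mem' := by
    rintro x y ⟨hx1, hx2, hx3⟩ ⟨hy1, hy2, hy3⟩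
    refine ⟨Subgroup.mul_mem _ hx1 hy1, Subgroup.mul_mem _ hx2 hy2, fun w hw => ?_⟩
    have hu := hy3 w hw
    have hcomm := Subgroup.mem_centralizer_iff.mp hx2 _ hu
    have e : x * y * w * (x * y)⁻¹ * w⁻¹ = (y * w * y⁻¹ * w⁻¹) * (x * w * x⁻¹ * w⁻¹) := by
      calc x * y * w * (x * y)⁻¹ * w⁻¹
          = (x * (y * w * y⁻¹ * w⁻¹)) * x⁻¹ * (x * w * x⁻¹ * w⁻¹) := by group
        _ = ((y * w * y⁻¹ * w⁻¹) * x) * x⁻¹ * (x * w * x⁻¹ * w⁻¹) := by rw [hcomm]
        _ = (y * w * y⁻¹ * w⁻¹) * (x * w * x⁻¹ * w⁻¹) := by group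
    rw [e]
    exact Subgroup.mul_mem _ hu (hx3 w hw)
  one_mem' := by
    refine ⟨Subgroup.one_mem _, Subgroup.one_mem _, fun w _ => ?_⟩
    have e : (1 : G) * w * 1⁻¹ * w⁻¹ = 1 := by group
    rw [e]
    exact Subgroup.one_mem _
  inv_mem' := by
    rintro x ⟨hx1, hx2, hx3⟩
    refine ⟨Subgroup.inv_mem _ hx1, Subgroup.inv_mem _ hx2, fun w hw => ?_⟩
    have hw' : x⁻¹ * w * x ∈ W := conj_inv_mem_of_mem_normalizer hx1 hw
    have h1 := hx3 _ hw'
    have e : x⁻¹ * w * x⁻¹⁻¹ * w⁻¹ = (x * (x⁻¹ * w * x) * x⁻¹ * (x⁻¹ * w * x)⁻¹)⁻¹ := by group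
    rw [e]
    exact Subgroup.inv_mem _ h1

theorem mem_chainStab {U W : Subgroup G} {x : G} :
    x ∈ chainStab U W ↔ x ∈ Subgroup.normalizer (W : Set G) ∧
      x ∈ Subgroup.centralizer (U : Set G) ∧ ∀ w ∈ W, x * w * x⁻¹ * w⁻¹ ∈ U := Iff.rfl

theorem chainStab_le_normalizer (U W : Subgroup G) :
    chainStab U W ≤ Subgroup.normalizer (W : Set G) := fun _ hx => hx.1

/-- the chain stabilizer is normalized by the elements of `N_G(W)` normalizing `U`. -/
theorem le_normalizer_chainStab {U W H : Subgroup G}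
    (hW : H ≤ Subgroup.normalizer (W : Set G)) (hU : H ≤ Subgroup.normalizer (U : Set G)) :
    H ≤ Subgroup.normalizer ((chainStab U W : Subgroup G) : Set G) := by
  apply le_normalizer_of_forall_conj_mem
  rintro t ht x ⟨hx1, hx2, hx3⟩
  have htW := hW ht
  have htU := hU ht
  refine ⟨?_, conj_mem_centralizer_of_normalizer htU hx2, fun w hw => ?_⟩
  · exact Subgroup.mul_mem _ (Subgroup.mul_mem _ htW hx1) (Subgroup.inv_mem _ htW)
  · have hw' : t⁻¹ * w * t ∈ W := conj_inv_mem_of_mem_normalizer htW hw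
    have h1 := conj_mem_of_mem_normalizer htU (hx3 _ hw')
    have e : t * x * t⁻¹ * w * (t * x * t⁻¹)⁻¹ * w⁻¹ =
        t * (x * (t⁻¹ * w * t) * x⁻¹ * (t⁻¹ * w * t)⁻¹) * t⁻¹ := by group
    rw [e]
    exact h1

/-- the `|U|`-th power of an element of the chain stabilizer centralizes `W`. -/
theorem pow_card_mem_centralizer_of_mem_chainStab [Finite G] {U W : Subgroup G} {x : G}
    (hx : x ∈ chainStab U W) : x ^ Nat.card U ∈ Subgroup.centralizer (W : Set G) := by
  obtain ⟨-, hx2, hx3⟩ := hx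
  rw [Subgroup.mem_centralizer_iff]
  intro w hw
  have hu := hx3 w hw
  have hcomm := Subgroup.mem_centralizer_iff.mp hx2 _ hu
  have key : ∀ i : ℕ, x ^ i * w * (x ^ i)⁻¹ = (x * w * x⁻¹ * w⁻¹) ^ i * w := by
    intro i
    induction i with
    | zero => simp
    | succ i ih =>
      have hc : x * (x * w * x⁻¹ * w⁻¹) ^ i = (x * w * x⁻¹ * w⁻¹) ^ i * x := by
        have : Commute x (x * w * x⁻¹ * w⁻¹) := hcomm.symm
        exact (this.pow_right i).eq
      calc x ^ (i + 1) * w * (x ^ (i + 1))⁻¹ = x * (x ^ i * w * (x ^ i)⁻¹) * x⁻¹ := by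
            rw [pow_succ']; group
        _ = x * ((x * w * x⁻¹ * w⁻¹) ^ i * w) * x⁻¹ := by rw [ih]
        _ = (x * (x * w * x⁻¹ * w⁻¹) ^ i) * (w * x⁻¹) := by group
        _ = ((x * w * x⁻¹ * w⁻¹) ^ i * x) * (w * x⁻¹) := by rw [hc]
        _ = (x * w * x⁻¹ * w⁻¹) ^ i * (x * w * x⁻¹ * w⁻¹) * w := by group
        _ = (x * w * x⁻¹ * w⁻¹) ^ (i + 1) * w := by rw [pow_succ]
  have h1 : (x * w * x⁻¹ * w⁻¹) ^ Nat.card U = 1 := by
    have h2 : (⟨x * w * x⁻¹ * w⁻¹, hu⟩ : U) ^ Nat.card U = 1 := pow_card_eq_one'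
    have h3 : (((⟨x * w * x⁻¹ * w⁻¹, hu⟩ : U) ^ Nat.card U : U) : G) = 1 := by rw [h2]; rfl
    rwa [Subgroup.coe_pow] at h3
  have h4 := key (Nat.card U)
  rw [h1, one_mul] at h4
  calc w * x ^ Nat.card U = (x ^ Nat.card U * w * (x ^ Nat.card U)⁻¹) * x ^ Nat.card U := by
        rw [h4]
    _ = x ^ Nat.card U * w := by group

/-- a normal subgroup of `p`-power index and a Sylow `p`-subgroup generate: product form. -/
theorem exists_mul_of_pow_relIndex [Finite G] {p : ℕ} [Fact p.Prime]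
    {X T K : Subgroup G} (hXK : X ≤ Subgroup.normalizer (K : Set G))
    (hT : IsSylIn p T X) (hK : ∃ k : ℕ, K.relIndex X = p ^ k) :
    ∀ t ∈ X, ∃ s ∈ T, ∃ c ∈ K, t = s * c := by
  intro t ht
  obtain ⟨k, hk⟩ := hK
  have h1 : (T ⊔ K).relIndex X ∣ T.relIndex X := Subgroup.relIndex_dvd_of_le_left X le_sup_left
  have h2 : (T ⊔ K).relIndex X ∣ p ^ k := hk ▸ Subgroup.relIndex_dvd_of_le_left X le_sup_right
  obtain ⟨i, -, hi⟩ := (Nat.dvd_prime_pow Fact.out).mp h2
  have hi0 : i = 0 := by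
    by_contra h
    apply hT.2.2
    exact (dvd_pow_self p h).trans (hi ▸ h1)
  rw [hi0, pow_zero] at hi
  have h3 : X ≤ T ⊔ K := Subgroup.relIndex_eq_one.mp hi
  have h4 : t ∈ ((T ⊔ K : Subgroup G) : Set G) := h3 ht
  rw [Subgroup.coe_mul_of_left_le_normalizer_right T K (hT.1.trans hXK)] at h4
  obtain ⟨s, hs, c, hc, rfl⟩ := Set.mem_mul.mp h4
  exact ⟨s, hs, c, hc, rfl⟩

/-- if `N_G(W)` has a normal `p`-complement and `S ∩ N_G(W)` is a Sylow `p`-subgroup of it, then
`N_G(W) = (S ∩ N_G(W)) C_G(W)`. -/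
theorem fac_of_npc_normalizer [Finite G] {p : ℕ} [Fact p.Prime] {S W : Subgroup G}
    (hWp : IsPGroup p W)
    (hsyl : IsSylIn p (S ⊓ Subgroup.normalizer (W : Set G)) (Subgroup.normalizer (W : Set G)))
    (hnpc : Npc p ↥(Subgroup.normalizer (W : Set G))) :
    ∀ t ∈ Subgroup.normalizer (W : Set G), Fac S W t := by
  obtain ⟨K₀, hK₀n, hcop, k, hk⟩ := hnpc
  have hNK : Subgroup.normalizer (W : Set G) ≤
      Subgroup.normalizer ((K₀.map (Subgroup.normalizer (W : Set G)).subtype : Subgroup G) :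
        Set G) := by
    apply le_normalizer_of_forall_conj_mem
    rintro n hn _ ⟨y, hy, rfl⟩
    exact ⟨⟨n, hn⟩ * y * ⟨n, hn⟩⁻¹, hK₀n.conj_mem y hy ⟨n, hn⟩, rfl⟩
  have hrel : (K₀.map (Subgroup.normalizer (W : Set G)).subtype).relIndex
      (Subgroup.normalizer (W : Set G)) = p ^ k := by
    have h1 : (K₀.map (Subgroup.normalizer (W : Set G)).subtype).subgroupOf
        (Subgroup.normalizer (W : Set G)) = K₀ :=
      Subgroup.comap_map_eq_self_of_injective (Subgroup.subtype_injective _) K₀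
    rw [Subgroup.relIndex, h1, hk]
  intro t ht
  obtain ⟨s, hs, c, hc, rfl⟩ := exists_mul_of_pow_relIndex hNK hsyl ⟨k, hrel⟩ t ht
  refine ⟨s, hs.1, c, ?_, rfl⟩
  obtain ⟨c₀, hc₀, rfl⟩ := hc
  rw [Subgroup.mem_centralizer_iff]
  intro w hw
  have hwN : w ∈ Subgroup.normalizer (W : Set G) := Subgroup.le_normalizer hw
  -- the commutator lies in `W` and in the normal `p`-complement
  have h1 : (⟨w, hwN⟩ : ↥(Subgroup.normalizer (W : Set G))) * c₀ * ⟨w, hwN⟩⁻¹ * c₀⁻¹ ∈ K₀ :=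
    Subgroup.mul_mem _ (hK₀n.conj_mem c₀ hc₀ _) (Subgroup.inv_mem _ hc₀)
  have h2 : w * (c₀ : G) * w⁻¹ * (c₀ : G)⁻¹ ∈ W := by
    have h3 : (c₀ : G) * w⁻¹ * (c₀ : G)⁻¹ ∈ W :=
      conj_mem_of_mem_normalizer c₀.2 (Subgroup.inv_mem _ hw)
    have e : w * (c₀ : G) * w⁻¹ * (c₀ : G)⁻¹ = w * ((c₀ : G) * w⁻¹ * (c₀ : G)⁻¹) := by group
    rw [e]
    exact Subgroup.mul_mem _ hw h3
  have h4 : (orderOf (w * (c₀ : G) * w⁻¹ * (c₀ : G)⁻¹)).Coprime p := by
    have h5 : orderOf ((⟨w, hwN⟩ : ↥(Subgroup.normalizer (W : Set G))) * c₀ * ⟨w, hwN⟩⁻¹ * c₀⁻¹)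
        ∣ Nat.card K₀ := Subgroup.orderOf_dvd_natCard K₀ h1
    have h6 : orderOf (w * (c₀ : G) * w⁻¹ * (c₀ : G)⁻¹) =
        orderOf ((⟨w, hwN⟩ : ↥(Subgroup.normalizer (W : Set G))) * c₀ * ⟨w, hwN⟩⁻¹ * c₀⁻¹) := by
      rw [← Subgroup.orderOf_coe]
      rfl
    rw [h6]
    exact Nat.Coprime.coprime_dvd_left h5 hcop
  have h7 := eq_one_of_mem_pgroup_of_coprime hWp h2 h4
  calc w * ((Subgroup.normalizer (W : Set G)).subtype c₀)
      = (w * (c₀ : G) * w⁻¹ * (c₀ : G)⁻¹) * ((c₀ : G) * w) := by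
        simp only [Subgroup.coe_subtype]; group
    _ = (Subgroup.normalizer (W : Set G)).subtype c₀ * w := by
        rw [h7, one_mul]; rfl

/-- if, modulo `C_G(W)`, an element of `N_G(W)` factors over a larger subgroup, it factors
over `W`. -/
theorem fac_of_enlarge {S W U : Subgroup G} (hWU : W ≤ U) {t c : G}
    (ht : t ∈ Subgroup.normalizer (W : Set G)) (hc : c ∈ Subgroup.centralizer (W : Set G))
    (h : Fac S U (c * t)) : Fac S W t := by
  obtain ⟨n, hn, c', hc', e⟩ := h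
  have hc'W : c' ∈ Subgroup.centralizer (W : Set G) := Subgroup.centralizer_le hWU hc'
  have hnN : n ∈ Subgroup.normalizer (W : Set G) := by
    have e1 : n = c * t * c'⁻¹ := by rw [e]; group
    rw [e1]
    exact Subgroup.mul_mem _ (Subgroup.mul_mem _ (Subgroup.centralizer_le_normalizer _ hc) ht)
      (Subgroup.inv_mem _ (Subgroup.centralizer_le_normalizer _ hc'W))
  refine ⟨n, hn, (n⁻¹ * c⁻¹ * n⁻¹⁻¹) * c', Subgroup.mul_mem _
    (conj_mem_centralizer_of_normalizer (Subgroup.inv_mem _ hnN) (Subgroup.inv_mem _ hc)) hc'W, ?_⟩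
  calc t = c⁻¹ * (c * t) := by group
    _ = c⁻¹ * (n * c') := by rw [e]
    _ = n * (n⁻¹ * c⁻¹ * n⁻¹⁻¹ * c') := by group


theorem mem_normalizer_sup' {W T : Subgroup G} {x : G}
    (hW : x ∈ Subgroup.normalizer (W : Set G)) (hT : x ∈ Subgroup.normalizer (T : Set G)) :
    x ∈ Subgroup.normalizer ((W ⊔ T : Subgroup G) : Set G) := by
  rw [← cj_eq_self_iff] at hW hT ⊢
  show (W ⊔ T).map (MulAut.conj x).toMonoidHom = W ⊔ T
  rw [Subgroup.map_sup]
  exact congrArg₂ _ hW hT

/-- a strongly closed subgroup is normalized by the ambient `p`-subgroup, elementwise. -/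
theorem IsStronglyClosed.conj_mem {D S : Subgroup G} (hD : Cfsg.IsStronglyClosed D S)
    {s x : G} (hs : s ∈ S) (hx : x ∈ D) : s * x * s⁻¹ ∈ D :=
  hD.2 x hx s (S.mul_mem (S.mul_mem hs (hD.1 hx)) (S.inv_mem hs))

/-- for `W ≤ S`, the normalizer of `W` normalizes `W ∩ D`. -/
theorem normalizer_le_normalizer_inf_of_stronglyClosed {D S W : Subgroup G}
    (hD : Cfsg.IsStronglyClosed D S) (hW : W ≤ S) :
    Subgroup.normalizer (W : Set G) ≤ Subgroup.normalizer ((W ⊓ D : Subgroup G) : Set G) := by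
  apply le_normalizer_of_forall_conj_mem
  rintro t ht x ⟨hxW, hxD⟩
  have h1 : t * x * t⁻¹ ∈ W := conj_mem_of_mem_normalizer ht hxW
  exact ⟨h1, hD.2 x hxD t (hW h1)⟩

/-- **The local step.** -/
theorem strClosed_local [Finite G] {p : ℕ} [Fact p.Prime] (S : Sylow p G) (D : Subgroup G)
    (hD : Cfsg.IsStronglyClosed D (S : Subgroup G))
    (hyp : ∀ U : Subgroup G, U ≤ D → D ⊓ Subgroup.centralizer (U : Set G) ≤ U →
      Npc p ↥(Subgroup.normalizer (U : Set G)))
    (W : Subgroup G) (hW : W ≤ (S : Subgroup G))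
    (hsyl : IsSylIn p ((S : Subgroup G) ⊓ Subgroup.normalizer (W : Set G))
      (Subgroup.normalizer (W : Set G)))
    (IH : ∀ (B : Subgroup G) (g : G), B ≤ (S : Subgroup G) → cj g B ≤ (S : Subgroup G) →
        Nat.card W < Nat.card B → Fac (S : Subgroup G) B g) :
    ∀ t ∈ Subgroup.normalizer (W : Set G), Fac (S : Subgroup G) W t := by
  have hWp : IsPGroup p W := S.isPGroup'.to_le hW
  have hNU := normalizer_le_normalizer_inf_of_stronglyClosed hD hW
  by_cases hc : D ⊓ Subgroup.centralizer ((W ⊓ D : Subgroup G) : Set G) ≤ W ⊓ D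
  · -- `W ∩ D` is centric in `D`
    exact fac_of_npc_normalizer hWp hsyl (Npc.of_le hNU (hyp _ inf_le_right hc))
  · -- `W ∩ D` is not centric in `D`
    obtain ⟨CD, hCDdef⟩ : ∃ CD : Subgroup G,
        CD = D ⊓ Subgroup.centralizer ((W ⊓ D : Subgroup G) : Set G) := ⟨_, rfl⟩
    rw [← hCDdef] at hc
    have hCD1 : CD ≤ D := by rw [hCDdef]; exact inf_le_left
    have hCD2 : CD ≤ Subgroup.centralizer ((W ⊓ D : Subgroup G) : Set G) := by
      rw [hCDdef]; exact inf_le_right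
    -- Step A: an element of `C_D(W ∩ D)` normalizing `W`, outside `W`
    have hCDS : CD ≤ (S : Subgroup G) := hCD1.trans hD.1
    have hWN : W ≤ Subgroup.normalizer (CD : Set G) := by
      apply le_normalizer_of_forall_conj_mem
      intro w hw x hx
      rw [hCDdef]
      exact ⟨IsStronglyClosed.conj_mem hD (hW hw) (hCD1 hx),
        conj_mem_centralizer_of_normalizer (hNU (Subgroup.le_normalizer hw)) (hCD2 hx)⟩
    have hne : W ≠ W ⊔ CD := by
      intro h
      apply hc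
      have h1 : CD ≤ W := le_sup_right.trans (le_of_eq h.symm)
      exact le_inf h1 hCD1
    have hsupS : W ⊔ CD ≤ (S : Subgroup G) := sup_le hW hCDS
    have hsupP : IsPGroup p ↥(W ⊔ CD : Subgroup G) := S.isPGroup'.to_le hsupS
    have hlt : Nat.card W <
        Nat.card ((W ⊔ CD) ⊓ Subgroup.normalizer (W : Set G) : Subgroup G) :=
      Helper42.card_lt_card_inf_normalizer hsupP le_sup_left hne
    obtain ⟨e, heCD, heN, heW⟩ : ∃ e ∈ CD, e ∈ Subgroup.normalizer (W : Set G) ∧ e ∉ W := by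
      by_contra hcon
      push Not at hcon
      have hle : (W ⊔ CD) ⊓ Subgroup.normalizer (W : Set G) ≤ W := by
        rintro y ⟨hy1, hy2⟩
        have hy3 : y ∈ ((W ⊔ CD : Subgroup G) : Set G) := hy1
        rw [Subgroup.coe_mul_of_left_le_normalizer_right W CD hWN] at hy3
        obtain ⟨w, hw, e, he, rfl⟩ := Set.mem_mul.mp hy3
        have heN : e ∈ Subgroup.normalizer (W : Set G) := by
          have e1 : e = w⁻¹ * (w * e) := by group
          rw [e1]
          exact Subgroup.mul_mem _ (Subgroup.inv_mem _ (Subgroup.le_normalizer hw)) hy2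
        exact W.mul_mem hw (hcon e he heN)
      exact absurd (Subgroup.card_le_of_le hle) (not_le.mpr hlt)
    -- Step B: the chain stabilizer
    obtain ⟨X, hXdef⟩ : ∃ X : Subgroup G, X = chainStab (W ⊓ D) W := ⟨_, rfl⟩
    have heX : e ∈ X := by
      rw [hXdef]
      refine ⟨heN, hCD2 heCD, fun w hw => ⟨?_, ?_⟩⟩
      · exact W.mul_mem (conj_mem_of_mem_normalizer heN hw) (W.inv_mem hw)
      · have h1 : w * e⁻¹ * w⁻¹ ∈ D :=
          IsStronglyClosed.conj_mem hD (hW hw) (D.inv_mem (hCD1 heCD))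
        have e1 : e * w * e⁻¹ * w⁻¹ = e * (w * e⁻¹ * w⁻¹) := by group
        rw [e1]
        exact D.mul_mem (hCD1 heCD) h1
    have hXN : X ≤ Subgroup.normalizer (W : Set G) := by
      rw [hXdef]; exact chainStab_le_normalizer (W ⊓ D) W
    have hNX : Subgroup.normalizer (W : Set G) ≤ Subgroup.normalizer (X : Set G) := by
      rw [hXdef]; exact le_normalizer_chainStab le_rfl hNU
    -- Step C: its Sylow subgroup and the centralizer of `W`
    have hT : IsSylIn p ((S : Subgroup G) ⊓ X) X := by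
      have h1 := hsyl.inf_normal hXN hNX
      rwa [inf_assoc, inf_eq_right.mpr hXN] at h1
    obtain ⟨K, hKdef⟩ : ∃ K : Subgroup G, K = X ⊓ Subgroup.centralizer (W : Set G) := ⟨_, rfl⟩
    have hK2 : K ≤ Subgroup.centralizer (W : Set G) := by rw [hKdef]; exact inf_le_right
    have hXK : X ≤ Subgroup.normalizer (K : Set G) := by
      apply le_normalizer_of_forall_conj_mem
      intro x hx k hk
      rw [hKdef] at hk ⊢
      exact ⟨Subgroup.mul_mem _ (Subgroup.mul_mem _ hx hk.1) (Subgroup.inv_mem _ hx),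
        conj_mem_centralizer_of_normalizer (hXN hx) hk.2⟩
    have hKidx : ∃ k : ℕ, K.relIndex X = p ^ k := by
      have hn : (K.subgroupOf X).Normal := Subgroup.normal_subgroupOf_of_le_normalizer hXK
      obtain ⟨a, ha⟩ := IsPGroup.iff_card.mp (hWp.to_le (inf_le_left : W ⊓ D ≤ W))
      have hpg : IsPGroup p (↥X ⧸ K.subgroupOf X) := by
        intro q
        induction q using QuotientGroup.induction_on with
        | H x =>
          refine ⟨a, ?_⟩
          rw [← QuotientGroup.mk_pow, QuotientGroup.eq_one_iff, Subgroup.mem_subgroupOf,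
            Subgroup.coe_pow, hKdef]
          refine ⟨Subgroup.pow_mem _ x.2 _, ?_⟩
          rw [← ha]
          have hx2 : (x : G) ∈ chainStab (W ⊓ D) W := by rw [← hXdef]; exact x.2
          exact pow_card_mem_centralizer_of_mem_chainStab hx2
      obtain ⟨k, hk⟩ := IsPGroup.iff_card.mp hpg
      exact ⟨k, by rw [Subgroup.relIndex, Subgroup.index_eq_card, hk]⟩
    -- Step D: the Frattini argument
    obtain ⟨T, hTdef⟩ : ∃ T : Subgroup G, T = (S : Subgroup G) ⊓ X := ⟨_, rfl⟩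
    rw [← hTdef] at hT
    have hTS : T ≤ (S : Subgroup G) := by rw [hTdef]; exact inf_le_left
    have heT : e ∈ T := by rw [hTdef]; exact ⟨hCDS heCD, heX⟩
    have hWlt : Nat.card W < Nat.card (W ⊔ T : Subgroup G) := by
      apply Helper42.card_lt_of_lt
      refine lt_of_le_of_ne le_sup_left (fun h => heW ?_)
      have h1 : T ≤ W := le_sup_right.trans (le_of_eq h.symm)
      exact h1 heT
    intro t ht
    have hT' : IsSylIn p (cj t T) X := by
      have h1 := hT.conj t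
      rwa [cj_eq_of_mem_normalizer (hNX ht)] at h1
    obtain ⟨x, hx, hxe⟩ := hT.conj_eq hT'
    obtain ⟨s, hs, c, hcK, rfl⟩ := exists_mul_of_pow_relIndex hXK hT hKidx x hx
    have h1 : cj (c * t) T = T := by
      rw [cj_cj] at hxe
      have h2 : cj s (cj (c * t) T) = T := by
        rw [cj_cj, ← mul_assoc]; exact hxe
      have h3 := congrArg (cj s⁻¹) h2
      rw [Helper42.cj_inv_cj] at h3
      rw [h3]
      exact cj_eq_of_mem_normalizer (Subgroup.le_normalizer (Subgroup.inv_mem _ hs))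
    have hctW : c * t ∈ Subgroup.normalizer (W : Set G) :=
      Subgroup.mul_mem _ (Subgroup.centralizer_le_normalizer _ (hK2 hcK)) ht
    have hctU : c * t ∈ Subgroup.normalizer ((W ⊔ T : Subgroup G) : Set G) :=
      mem_normalizer_sup' hctW (cj_eq_self_iff.mp h1)
    have hUS : W ⊔ T ≤ (S : Subgroup G) := sup_le hW hTS
    have hfac := IH _ (c * t) hUS (by rw [cj_eq_of_mem_normalizer hctU]; exact hUS) hWlt
    exact fac_of_enlarge le_sup_left ht (hK2 hcK) hfac

/-- **Frobenius' criterion relative to a strongly closed subgroup.** -/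
theorem strClosed_npc [Finite G] {p : ℕ} [Fact p.Prime] (S : Sylow p G) (D : Subgroup G)
    (hD : Cfsg.IsStronglyClosed D (S : Subgroup G))
    (hyp : ∀ U : Subgroup G, U ≤ D → D ⊓ Subgroup.centralizer (U : Set G) ≤ U →
      Npc p ↥(Subgroup.normalizer (U : Set G))) :
    Cfsg.HasNormalPComplement p G := by
  have key : ∀ (A : Subgroup G) (g : G), A ≤ (S : Subgroup G) → cj g A ≤ (S : Subgroup G) →
      Fac (S : Subgroup G) A g := by
    apply Helper42.alperin_fac S (S : Subgroup G)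
    intro A hA IH
    obtain ⟨m, hm, hsyl⟩ := Helper42.exists_fn_conj S hA
    refine ⟨m, hm, hsyl.2.2, ?_⟩
    apply strClosed_local S D hD hyp (cj m A) hm hsyl
    intro B g hB hBg hcard
    exact IH B g hB hBg (by rwa [card_cj] at hcard)
  obtain ⟨N, hN, hc⟩ := (Cfsg.Agent.S0071.result S).mpr (by
    intro Q hQ g hg hcop
    have hfac := key Q g hQ (by rw [cj_eq_of_mem_normalizer hg]; exact hQ)
    obtain ⟨x, hx, hxa⟩ := hfac.conj_eq
    have hpow : ∀ i : ℕ, ∀ a ∈ Q, x ^ i * a * (x ^ i)⁻¹ = g ^ i * a * (g ^ i)⁻¹ := by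
      intro i
      induction i with
      | zero => intro a _; simp
      | succ i ih =>
        intro a ha
        have ha' : g * a * g⁻¹ ∈ Q := conj_mem_of_mem_normalizer hg ha
        calc x ^ (i + 1) * a * (x ^ (i + 1))⁻¹ = x ^ i * (x * a * x⁻¹) * (x ^ i)⁻¹ := by
              rw [pow_succ]; group
          _ = x ^ i * (g * a * g⁻¹) * (x ^ i)⁻¹ := by rw [hxa a ha]
          _ = g ^ i * (g * a * g⁻¹) * (g ^ i)⁻¹ := ih _ ha'
          _ = g ^ (i + 1) * a * (g ^ (i + 1))⁻¹ := by rw [pow_succ]; group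
    obtain ⟨j, hj⟩ := S.isPGroup' ⟨x, hx⟩
    have hxj : x ^ p ^ j = 1 := by
      have h1 : (((⟨x, hx⟩ : ↥(S : Subgroup G)) ^ p ^ j : ↥(S : Subgroup G)) : G) = 1 := by
        rw [hj]; rfl
      rwa [Subgroup.coe_pow] at h1
    have hgj : g ^ p ^ j ∈ Subgroup.centralizer (Q : Set G) := by
      rw [Subgroup.mem_centralizer_iff]
      intro a ha
      have h1 := hpow (p ^ j) a ha
      rw [hxj] at h1
      calc a * g ^ p ^ j = ((1 : G) * a * (1 : G)⁻¹) * g ^ p ^ j := by group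
        _ = (g ^ p ^ j * a * (g ^ p ^ j)⁻¹) * g ^ p ^ j := by rw [h1]
        _ = g ^ p ^ j * a := by group
    obtain ⟨m, hm⟩ := exists_pow_eq_self_of_coprime
      (Nat.Coprime.pow_left j (Nat.Coprime.symm hcop) : (p ^ j).Coprime (orderOf g))
    rw [← hm]
    exact Subgroup.pow_mem _ hgj m)
  exact ⟨S, N, hN, hc⟩

end strclosed

end Cfsg.Agent.Lib.Helper26
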