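import Mathlib
import Cfsg.Agent.Lib.Helper1.Hall
import Cfsg.Agent.Lib.Helper11.Sharp

/-!
# S4150 piece TP-SOLV (for helper76)

A solvable transitive permutation group of prime degree `r` has order dividing `r (r - 1)` and
its non-identity elements fix at most one point.
-/

set_option autoImplicit false
set_option linter.style.haveILetI false

namespace Cfsg.Agent.Lib.Helper26.TwoPr

open Equiv Equiv.Perm MulAction
open scoped commutatorElement

/-- TP-SOLV -/
theorem solv_prime_degree {Γ : Type*} [Fintype Γ] [DecidableEq Γ] (L : Subgroup (Perm Γ))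
    [IsPretransitive L Γ] (hprime : (Fintype.card Γ).Prime) (hs : Group.IsSolvable L) :
    Nat.card L ∣ Fintype.card Γ * (Fintype.card Γ - 1) ∧
      ∀ g ∈ L, g ≠ 1 → ∀ a b : Γ, g a = a → g b = b → a = b := by
  classical
  haveI hfact : Fact (Fintype.card Γ).Prime := ⟨hprime⟩
  have hcardΓ : Nat.card Γ = Fintype.card Γ := Nat.card_eq_fintype_card
  have hfaith : ∀ g : L, (∀ a : Γ, g • a = a) → g = 1 := by
    intro g hg
    apply Subtype.ext
    ext a
    exact hg a
  haveI hΓnt : Nontrivial Γ := Fintype.one_lt_card_iff_nontrivial.1 hprime.one_lt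
  haveI hLnt : Nontrivial L := by
    obtain ⟨x, y, hxy⟩ := exists_pair_ne Γ
    obtain ⟨g, hg⟩ := exists_smul_eq L x y
    refine ⟨⟨g, 1, ?_⟩⟩
    intro h
    apply hxy
    rw [← hg, h, one_smul]
  obtain ⟨A, hAn, hA1, hAc⟩ := Cfsg.Agent.Lib.Helper1.exists_normal_abelian (G := L)
  haveI := hAn
  haveI hprim : IsPreprimitive L Γ :=
    IsPreprimitive.of_prime_card (by rw [hcardΓ]; exact hprime)
  haveI hAtr : IsPretransitive A Γ := by
    apply IsQuasiPreprimitive.isPretransitive_of_normal
    intro huniv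
    apply hA1
    rw [eq_bot_iff]
    intro a ha
    rw [Subgroup.mem_bot]
    apply hfaith
    intro x
    have hx : x ∈ fixedPoints A Γ := by rw [huniv]; exact Set.mem_univ x
    exact hx ⟨a, ha⟩
  have hAcomm : ∀ a ∈ A, ∀ b ∈ A, a * b = b * a := by
    intro a ha b hb
    have h1 : ⁅a, b⁆ ∈ ⁅A, A⁆ := Subgroup.commutator_mem_commutator ha hb
    rw [hAc, Subgroup.mem_bot] at h1
    exact commutatorElement_eq_one_iff_mul_comm.1 h1
  -- `A` acts regularly
  have hAreg : ∀ a ∈ A, ∀ x : Γ, a • x = x → a = 1 := by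
    intro a ha x hx
    apply hfaith
    intro y
    obtain ⟨b, hb⟩ := exists_smul_eq A x y
    rw [← hb]
    show a • ((b : L) • x) = (b : L) • x
    rw [← mul_smul, hAcomm a ha b b.2, mul_smul, hx]
  obtain ⟨x₀⟩ : Nonempty Γ := inferInstance
  have hAcard : Nat.card A = Fintype.card Γ := by
    have hstab : stabilizer A x₀ = ⊥ := by
      rw [eq_bot_iff]
      intro a ha
      rw [Subgroup.mem_bot]
      apply Subtype.ext
      exact hAreg a a.2 x₀ ha
    have hidx := index_stabilizer A x₀
    rw [hstab, Subgroup.index_bot, orbit_eq_univ, Set.ncard_univ, hcardΓ] at hidx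
    exact hidx
  refine ⟨?_, ?_⟩
  · -- the order of `L`
    have hpG : Fintype.card Γ ∣ Nat.card L := by
      rw [← hAcard]
      exact Subgroup.card_subgroup_dvd_card A
    have hp2 : ¬ Fintype.card Γ ^ 2 ∣ Nat.card L := by
      intro h
      have h1 : Nat.card L ∣ (Fintype.card Γ).factorial := by
        have h2 := Subgroup.card_subgroup_dvd_card L
        have h2' : Nat.card (Perm Γ) = (Fintype.card Γ).factorial := by
          rw [Nat.card_eq_fintype_card, Fintype.card_perm]
        rw [h2'] at h2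
        exact h2
      have h3 := h.trans h1
      obtain ⟨m, hm⟩ : ∃ m, Fintype.card Γ = m + 1 := ⟨Fintype.card Γ - 1, by
        have := hprime.pos; omega⟩
      have h4 : Fintype.card Γ ∣ m.factorial := by
        have h5 : Fintype.card Γ * Fintype.card Γ ∣ Fintype.card Γ * m.factorial := by
          have h6 : (Fintype.card Γ).factorial = Fintype.card Γ * m.factorial := by
            conv_lhs => rw [hm]
            rw [Nat.factorial_succ, ← hm]
          rw [← h6, ← sq]
          exact h3
        exact Nat.dvd_of_mul_dvd_mul_left hprime.pos h5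
      have h7 := (hprime.dvd_factorial).1 h4
      omega
    have hApg : IsPGroup (Fintype.card Γ) A := IsPGroup.of_card (n := 1) (by rw [hAcard, pow_one])
    obtain ⟨Q, hQ⟩ := hApg.exists_le_sylow
    have hQcard : Nat.card Q = Fintype.card Γ :=
      Cfsg.Agent.Lib.Helper11.card_sylow_of_prime_exact hpG hp2 Q
    have hAQ : A = (Q : Subgroup L) :=
      Subgroup.eq_of_le_of_card_ge hQ (by rw [hQcard, hAcard])
    obtain ⟨d, hd, hN⟩ := Cfsg.Agent.Lib.Helper11.card_normalizer_sylow_prime_degree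
      (G := L) (α := Γ) hcardΓ hfaith hpG hp2 Q
    rw [← hAQ, Subgroup.normalizer_eq_top, Subgroup.card_top] at hN
    rw [hN]
    exact Nat.mul_dvd_mul_left _ hd
  · -- fixed points
    intro g hg hg1 a b hga hgb
    by_contra hab
    obtain ⟨u, hu⟩ := exists_smul_eq A a b
    have hgLa : (⟨g, hg⟩ : L) • a = a := hga
    have hgLb : (⟨g, hg⟩ : L) • b = b := hgb
    have hginv : (⟨g, hg⟩ : L)⁻¹ • a = a := by
      rw [inv_smul_eq_iff, hgLa]
    have hub : (u : L) • a = b := hu
    have hw : (u : L)⁻¹ * ((⟨g, hg⟩ : L) * (u : L) * (⟨g, hg⟩ : L)⁻¹) ∈ A :=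
      A.mul_mem (A.inv_mem u.2) (hAn.conj_mem (u : L) u.2 ⟨g, hg⟩)
    have hwa : ((u : L)⁻¹ * ((⟨g, hg⟩ : L) * (u : L) * (⟨g, hg⟩ : L)⁻¹)) • a = a := by
      rw [mul_smul, mul_smul, mul_smul, hginv, hub, hgLb, inv_smul_eq_iff, hub]
    have hw1 := hAreg _ hw a hwa
    have hcomm : Commute (⟨g, hg⟩ : L) (u : L) := by
      have h1 : (⟨g, hg⟩ : L) * (u : L) * (⟨g, hg⟩ : L)⁻¹ = (u : L) := by
        rw [inv_mul_eq_one] at hw1
        exact hw1.symm
      show (⟨g, hg⟩ : L) * (u : L) = (u : L) * (⟨g, hg⟩ : L)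
      rw [← h1, inv_mul_cancel_right, h1]
    have hu1 : u ≠ 1 := by
      intro h
      apply hab
      rw [← hu, h, one_smul]
    have hgen : Subgroup.zpowers u = ⊤ := zpowers_eq_top_of_prime_card hAcard hu1
    have hall : ∀ y : Γ, (⟨g, hg⟩ : L) • y = y := by
      intro y
      obtain ⟨v, hv⟩ := exists_smul_eq A a y
      have hvmem : v ∈ Subgroup.zpowers u := by rw [hgen]; exact Subgroup.mem_top v
      obtain ⟨k, hk⟩ := Subgroup.mem_zpowers_iff.1 hvmem
      have hcv : Commute (⟨g, hg⟩ : L) (v : L) := by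
        rw [← hk]
        have : ((u ^ k : A) : L) = (u : L) ^ k := by simp
        rw [this]
        exact hcomm.zpow_right k
      rw [← hv]
      show (⟨g, hg⟩ : L) • ((v : L) • a) = (v : L) • a
      rw [← mul_smul, hcv.eq, mul_smul, hgLa]
    have hg1' := hfaith ⟨g, hg⟩ hall
    apply hg1
    exact congrArg Subtype.val hg1'

end Cfsg.Agent.Lib.Helper26.TwoPr
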